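import Mathlib
import Cfsg.Agent.Lib.Helper81.OSum
import Cfsg.Agent.Lib.Helper81.DeltaGrp
import Cfsg.Agent.Lib.Helper51.DicksonTwo
import Cfsg.Agent.Lib.Helper52.OmegaGeom

/-!
# OMEGA-SYL piece OG (helper29): Gram matrix and non-degeneracy of orthogonal sums and of
one-variable forms.
-/

set_option autoImplicit false
set_option linter.unusedSectionVars false

namespace Cfsg.Agent.Lib.Helper29.OmOG

open Cfsg Cfsg.Agent.Lib.Helper51 Cfsg.Agent.Lib.Helper81.OSum

section OG

variable {ι₁ ι₂ : Type} [Fintype ι₁] [DecidableEq ι₁] [Fintype ι₂] [DecidableEq ι₂]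
variable {F : Type*} [Field F]

theorem polar_osum (Q₁ : QuadraticForm F (ι₁ → F)) (Q₂ : QuadraticForm F (ι₂ → F))
    (x y : ι₁ ⊕ ι₂ → F) :
    QuadraticMap.polar ⇑(osum Q₁ Q₂) x y =
      QuadraticMap.polar ⇑Q₁ (fun i => x (Sum.inl i)) (fun i => y (Sum.inl i)) +
        QuadraticMap.polar ⇑Q₂ (fun i => x (Sum.inr i)) (fun i => y (Sum.inr i)) := by
  unfold QuadraticMap.polar
  rw [osum_apply, osum_apply, osum_apply]
  have e1 : (fun i => (x + y) (Sum.inl i)) = (fun i => x (Sum.inl i)) + fun i => y (Sum.inl i) :=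
    rfl
  have e2 : (fun i => (x + y) (Sum.inr i)) = (fun i => x (Sum.inr i)) + fun i => y (Sum.inr i) :=
    rfl
  rw [e1, e2]
  ring

theorem single_inl_inl (a : ι₁) :
    (fun i => (Pi.single (Sum.inl a) 1 : ι₁ ⊕ ι₂ → F) (Sum.inl i)) = Pi.single a 1 := by
  funext i
  simp [Pi.single_apply]

theorem single_inl_inr (a : ι₁) :
    (fun i => (Pi.single (Sum.inl a) 1 : ι₁ ⊕ ι₂ → F) (Sum.inr i)) = 0 := by
  funext i
  simp [Pi.single_apply]

theorem single_inr_inl (a : ι₂) :
    (fun i => (Pi.single (Sum.inr a) 1 : ι₁ ⊕ ι₂ → F) (Sum.inl i)) = 0 := by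
  funext i
  simp [Pi.single_apply]

theorem single_inr_inr (a : ι₂) :
    (fun i => (Pi.single (Sum.inr a) 1 : ι₁ ⊕ ι₂ → F) (Sum.inr i)) = Pi.single a 1 := by
  funext i
  simp [Pi.single_apply]

theorem gram_osum (Q₁ : QuadraticForm F (ι₁ → F)) (Q₂ : QuadraticForm F (ι₂ → F)) :
    gram (osum Q₁ Q₂) = Matrix.fromBlocks (gram Q₁) 0 0 (gram Q₂) := by
  ext a b
  rw [gram_apply, polar_osum]
  rcases a with a | a <;> rcases b with b | b
  · rw [single_inl_inl, single_inl_inl, single_inl_inr, single_inl_inr,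
      QuadraticMap.polar_zero_left, add_zero, Matrix.fromBlocks_apply₁₁, gram_apply]
  · rw [single_inl_inl, single_inr_inl, single_inl_inr, single_inr_inr,
      QuadraticMap.polar_zero_right, QuadraticMap.polar_zero_left, add_zero,
      Matrix.fromBlocks_apply₁₂, Matrix.zero_apply]
  · rw [single_inr_inl, single_inl_inl, single_inr_inr, single_inl_inr,
      QuadraticMap.polar_zero_right, QuadraticMap.polar_zero_left, add_zero,
      Matrix.fromBlocks_apply₂₁, Matrix.zero_apply]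
  · rw [single_inr_inl, single_inr_inl, single_inr_inr, single_inr_inr,
      QuadraticMap.polar_zero_left, zero_add, Matrix.fromBlocks_apply₂₂, gram_apply]

theorem det_gram_osum (Q₁ : QuadraticForm F (ι₁ → F)) (Q₂ : QuadraticForm F (ι₂ → F)) :
    (gram (osum Q₁ Q₂)).det = (gram Q₁).det * (gram Q₂).det := by
  rw [gram_osum, Matrix.det_fromBlocks_zero₂₁]

theorem osum_nondeg (Q₁ : QuadraticForm F (ι₁ → F)) (Q₂ : QuadraticForm F (ι₂ → F))
    (h₁ : (QuadraticMap.polarBilin Q₁).Nondegenerate)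
    (h₂ : (QuadraticMap.polarBilin Q₂).Nondegenerate) :
    (QuadraticMap.polarBilin (osum Q₁ Q₂)).Nondegenerate := by
  apply nondegenerate_of_det_gram_ne_zero
  rw [det_gram_osum]
  exact mul_ne_zero (det_gram_ne_zero_of_nondegenerate Q₁ h₁)
    (det_gram_ne_zero_of_nondegenerate Q₂ h₂)

theorem det_gram_uf (c : F) : (gram (uf c)).det = 2 * c := by
  rw [Matrix.det_unique, gram_apply]
  unfold QuadraticMap.polar
  rw [uf_apply, uf_apply]
  simp only [Pi.add_apply, Pi.single_eq_same]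
  ring

theorem uf_nondeg (h2 : (2 : F) ≠ 0) (c : F) (hc : c ≠ 0) :
    (QuadraticMap.polarBilin (uf c)).Nondegenerate := by
  apply nondegenerate_of_det_gram_ne_zero
  rw [det_gram_uf]
  exact mul_ne_zero h2 hc

end OG

end Cfsg.Agent.Lib.Helper29.OmOG
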