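import Mathlib
import Cfsg.Agent.Lib.Helper10.BT0
import Cfsg.Agent.Lib.Helper79.Blk2
import Cfsg.Agent.Lib.Helper82.CharCore

/-!
# S4700 piece BT-P3: renormalising the block data so that the trivial character lies in `X`
-/

set_option autoImplicit false

namespace Cfsg.Agent.Lib.Helper10.BT

open Cfsg
open Cfsg.Agent.Lib.Helper83 (trivIrr)
open Cfsg.Agent.Lib.Helper10.BR (psum DOut Tab)
open scoped ComplexConjugate

/-- BT-P3 -/
theorem triv_norm {G : Type*} [Group G] [Fintype G] (hperf : commutator G = ⊤)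
    (p : ℕ) (M : Ideal AlgInt) (hM : IsPModular p M) (P : Subgroup G) (hP : Nat.card P = p)
    (e : ℕ) (he : e ∣ p - 1) (he2 : 2 ≤ e)
    (X Y : Set (IrrCharacter G)) (εX : IrrCharacter G → ℤ) (ε : ℤ)
    (hD : DOut G p M P e X Y εX ε) :
    ∃ (X' Y' : Set (IrrCharacter G)) (εX' : IrrCharacter G → ℤ) (ε' : ℤ),
      DOut G p M P e X' Y' εX' ε' ∧ trivIrr G ∈ X' ∧ εX' (trivIrr G) = 1 := by
  classical
  haveI : Finite (IrrCharacter G) := Cfsg.Agent.Lib.Helper82.finite_irrCharacter G
  have hp : p.Prime := hM.1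
  have h1 : trivIrr G ∈ X ∪ Y := by
    rw [← hD.block]
    exact Cfsg.Agent.Lib.Helper79.trivIrr_mem_principalBlock hM
  have hreg : ¬ p ∣ orderOf (1 : G) := by
    rw [orderOf_one]
    exact fun h => hp.one_lt.ne' (Nat.dvd_one.mp h)
  rcases h1 with hX | hY
  · -- the trivial character already lies in `X`
    refine ⟨X, Y, εX, ε, hD, hX, ?_⟩
    have hPcard : 1 < Nat.card P := by rw [hP]; exact hp.one_lt
    have hPfin : Finite P := Nat.finite_of_card_ne_zero (by omega)
    obtain ⟨x, hx⟩ : ∃ x : P, x ≠ 1 := by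
      have hnt : Nontrivial P := Finite.one_lt_card_iff_nontrivial.mp hPcard
      exact exists_ne 1
    have h4 := hD.valX (trivIrr G) hX x x.2 (fun h => hx (Subtype.ext h)) 1
      (Subgroup.one_mem _) hreg
    have h5 : (1 : ℂ) = ((εX (trivIrr G) : ℤ) : ℂ) := h4
    exact_mod_cast h5.symm
  · -- the trivial character is the only member of `Y`
    have hYeq : Y = {trivIrr G} := by
      ext θ
      simp only [Set.mem_singleton_iff]
      constructor
      · intro hθ
        have h2 := hD.regY θ hθ (trivIrr G) hY 1 hreg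
        have h3 : (θ : G → ℂ) 1 = 1 := h2
        apply Subtype.ext
        funext g
        have hg : g ∈ commutator G := by rw [hperf]; exact Subgroup.mem_top g
        exact Cfsg.Agent.Lib.Helper83.irr_linear_commutator θ.2 h3 hg
      · intro h
        rw [h]
        exact hY
    have hcardY : (p - 1) / e = 1 := by
      rw [← hD.cardY, hYeq, Nat.card_coe_set_eq, Set.ncard_singleton]
    have hep : e = p - 1 := by
      have h := Nat.div_mul_cancel he
      rw [hcardY, one_mul] at h
      exact h
    have hp3 : 3 ≤ p := by omega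
    have hcast : (e : ℤ) = (p : ℤ) - 1 := by omega
    have hdeg : charDegree ((trivIrr G : IrrCharacter G) : G → ℂ) = 1 :=
      (Cfsg.Agent.Lib.Helper83.irr_charDegree_eq_one_iff (trivIrr G).2).mpr rfl
    have hε : ε = -1 := by
      have h2 := hD.degY (trivIrr G) hY
      rw [hdeg] at h2
      rcases hD.signY with h | h
      · exfalso
        rw [h, hcast] at h2
        have h3 : (p : ℤ) ∣ (p : ℤ) - 2 := by
          have h4 := Int.modEq_iff_dvd.mp h2
          have e1 : (1 : ℤ) * ((p : ℤ) - 1) - ((1 : ℕ) : ℤ) = (p : ℤ) - 2 := by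
            push_cast; ring
          rwa [e1] at h4
        have h5 := Int.le_of_dvd (by omega) h3
        omega
      · exact h
    have hXne : Nonempty X := by
      have h := hD.cardX
      have h' : Nat.card X ≠ 0 := by omega
      exact (Nat.card_ne_zero.mp h').1
    obtain ⟨⟨χ₀, hχ₀⟩⟩ := hXne
    have htX : trivIrr G ∉ X := fun h => Set.disjoint_left.mp hD.disj h hY
    have hχ₀t : χ₀ ≠ trivIrr G := fun h => htX (h ▸ hχ₀)
    have hup : ∀ χ ∈ X \ {χ₀}, Function.update εX (trivIrr G) 1 χ = εX χ := by
      intro χ hχ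
      have hne : χ ≠ trivIrr G := by
        intro h
        rw [h] at hχ
        exact htX hχ.1
      exact Function.update_of_ne hne _ _
    have hupt : Function.update εX (trivIrr G) 1 (trivIrr G) = 1 := Function.update_self _ _ _
    have htX' : trivIrr G ∉ X \ {χ₀} := fun h => htX h.1
    have hsX : εX χ₀ = 1 ∨ εX χ₀ = -1 := hD.signX χ₀ hχ₀
    refine ⟨insert (trivIrr G) (X \ {χ₀}), {χ₀}, Function.update εX (trivIrr G) 1, -εX χ₀,
      ?_, Set.mem_insert _ _, hupt⟩
    refine
      { block := ?_
        disj := ?_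
        cardX := ?_
        cardY := ?_
        signX := ?_
        degX := ?_
        valX := ?_
        signY := ?_
        degY := ?_
        regY := ?_
        t1 := ?_ }
    · -- block
      rw [hD.block, hYeq]
      ext ψ
      simp only [Set.mem_union, Set.mem_singleton_iff, Set.mem_insert_iff, Set.mem_diff]
      constructor
      · rintro (h | h)
        · by_cases hψ : ψ = χ₀
          · exact Or.inr hψ
          · exact Or.inl (Or.inr ⟨h, hψ⟩)
        · exact Or.inl (Or.inl h)
      · rintro ((h | h) | h)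
        · exact Or.inr h
        · exact Or.inl h.1
        · exact Or.inl (h ▸ hχ₀)
    · -- disj
      rw [Set.disjoint_singleton_right]
      intro h
      rcases h with h | h
      · exact hχ₀t h
      · exact h.2 rfl
    · -- cardX
      have hc := hD.cardX
      rw [Nat.card_coe_set_eq] at hc ⊢
      rw [Set.ncard_insert_of_notMem htX' (Set.toFinite _),
        Set.ncard_diff_singleton_of_mem hχ₀, hc]
      omega
    · -- cardY
      rw [hcardY, Nat.card_coe_set_eq, Set.ncard_singleton]
    · -- signX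
      rintro χ (rfl | hχ)
      · exact Or.inl hupt
      · rw [hup χ hχ]
        exact hD.signX χ hχ.1
    · -- degX
      rintro χ (rfl | hχ)
      · rw [hupt, hdeg]
        exact Int.ModEq.refl _
      · rw [hup χ hχ]
        exact hD.degX χ hχ.1
    · -- valX
      rintro χ (rfl | hχ) x hx hx1 y hy hyp
      · rw [hupt]
        show (1 : ℂ) = ((1 : ℤ) : ℂ)
        norm_num
      · rw [hup χ hχ]
        exact hD.valX χ hχ.1 x hx hx1 y hy hyp
    · -- signY
      rcases hsX with h | h
      · right; rw [h]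
      · left; rw [h]; norm_num
    · -- degY
      intro θ hθ
      rw [Set.mem_singleton_iff] at hθ
      rw [hθ]
      refine (hD.degX χ₀ hχ₀).trans ?_
      rw [Int.modEq_iff_dvd]
      exact ⟨-εX χ₀, by rw [hcast]; ring⟩
    · -- regY
      intro θ hθ θ' hθ' g _
      rw [Set.mem_singleton_iff] at hθ hθ'
      rw [hθ, hθ']
    · -- t1
      intro θ hθ g hg
      rw [Set.mem_singleton_iff] at hθ
      rw [hθ]
      have hold := hD.t1 (trivIrr G) hY g hg
      rw [hε] at hold
      have hXins : X = insert χ₀ (X \ {χ₀}) := by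
        rw [Set.insert_diff_singleton, Set.insert_eq_of_mem hχ₀]
      have hs1 : ∑ᶠ χ ∈ X, (εX χ : ℂ) * (χ : G → ℂ) g =
          (εX χ₀ : ℂ) * (χ₀ : G → ℂ) g + ∑ᶠ χ ∈ X \ {χ₀}, (εX χ : ℂ) * (χ : G → ℂ) g := by
        conv_lhs => rw [hXins]
        exact finsum_mem_insert _ (fun h => h.2 rfl) (Set.toFinite _)
      have hs2 : ∑ᶠ χ ∈ insert (trivIrr G) (X \ {χ₀}),
            ((Function.update εX (trivIrr G) 1 χ : ℤ) : ℂ) * (χ : G → ℂ) g =
          1 + ∑ᶠ χ ∈ X \ {χ₀}, (εX χ : ℂ) * (χ : G → ℂ) g := by
        rw [finsum_mem_insert _ htX' (Set.toFinite _), hupt]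
        congr 1
        · show ((1 : ℤ) : ℂ) * (1 : ℂ) = 1
          norm_num
        · exact finsum_mem_congr rfl (fun χ hχ => by rw [hup χ hχ])
      rw [hs2]
      have ht : ((trivIrr G : IrrCharacter G) : G → ℂ) g = 1 := rfl
      rw [ht, hs1] at hold
      push_cast at hold ⊢
      linear_combination hold

end Cfsg.Agent.Lib.Helper10.BT
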