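import Mathlib
import Cfsg.Agent.Lib.Helper80.BaerDefs

/-!
# S4125, piece X76: a `BaerAct` on an elementary abelian group of order `q ^ 2` has `H` a
`p`-group (hence solvable).
-/

set_option autoImplicit false

namespace Cfsg.Agent.Lib.Helper29

open Cfsg.Agent.Lib.Helper80

section X76

variable {p : ℕ} [Fact p.Prime] {H V : Type*} [Group H] [Finite H] [AddCommGroup V] [Finite V]
  [DistribMulAction H V]

omit [Fact p.Prime] [Finite H] [Finite V] [DistribMulAction H V] in
lemma x76_zsmul_eq {q : ℕ} (hqV : ∀ v : V, q • v = 0) {a b : ℤ}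
    (h : (q : ℤ) ∣ a - b) (v : V) : a • v = b • v := by
  obtain ⟨c, hc⟩ := h
  have h1 : a = b + c * q := by linarith
  rw [h1, add_zsmul, mul_smul, natCast_zsmul, hqV, smul_zero, add_zero]

omit [Finite V] in
/-- Key step: an element of prime order `r` of a point stabilizer has `r = p`. -/
lemma x76_key {q : ℕ} (hq : q.Prime) (hB : BaerAct p H V)
    (hV : Nat.card V = q ^ 2) (hqV : ∀ v : V, q • v = 0) (v : V) (hv : v ≠ 0)
    (y : H) (hyv : y • v = v) (r : ℕ) (hr : r.Prime) (hy : orderOf y = r) : r = p := by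
  classical
  haveI : Finite V := Nat.finite_of_card_ne_zero (by rw [hV]; exact pow_ne_zero _ hq.ne_zero)
  haveI := Fact.mk hq
  have hp : p.Prime := Fact.out
  have hord : ∀ w : V, w ≠ 0 → ∀ a : ℤ, a • w = 0 → (q : ℤ) ∣ a := by
    intro w hw a ha
    have h1 : addOrderOf w = q := addOrderOf_eq_prime (hqV w) hw
    rw [← h1]; exact addOrderOf_dvd_iff_zsmul_eq_zero.mpr ha
  have hrq : r ≠ q := by
    intro h
    have h1 : q ∣ Nat.card H := by rw [← h, ← hy]; exact orderOf_dvd_natCard y
    have h2 : q ∣ Nat.card V := by rw [hV]; exact dvd_pow_self q (by norm_num)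
    have h3 := Nat.dvd_gcd h1 h2
    rw [hB.coprime] at h3
    exact hq.one_lt.ne' (Nat.dvd_one.mp h3)
  -- the line through v
  set L : AddSubgroup V := AddSubgroup.zmultiples v with hL
  have hLcard : Nat.card L = q := by
    rw [hL, Nat.card_zmultiples]; exact addOrderOf_eq_prime (hqV v) hv
  obtain ⟨u0, hu0⟩ : ∃ u0 : V, u0 ∉ L := by
    by_contra h
    push Not at h
    have h1 : L = ⊤ := (AddSubgroup.eq_top_iff' L).mpr h
    rw [h1, AddSubgroup.card_top, hV] at hLcard
    have : q ^ 2 = q ^ 1 := by rw [pow_one]; exact hLcard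
    exact absurd (Nat.pow_right_injective hq.two_le this) (by norm_num)
  -- u0 and v generate V
  have hgen : ∀ u : V, ∃ a b : ℤ, u = a • u0 + b • v := by
    set S : AddSubgroup V := AddSubgroup.zmultiples u0 ⊔ AddSubgroup.zmultiples v with hS
    have hLS : L ≤ S := le_sup_right
    have hu0S : u0 ∈ S := (le_sup_left : AddSubgroup.zmultiples u0 ≤ S)
      (AddSubgroup.mem_zmultiples u0)
    have hdvd : Nat.card S ∣ q ^ 2 := by rw [← hV]; exact AddSubgroup.card_addSubgroup_dvd_card S
    obtain ⟨i, hi, hiS⟩ := (Nat.dvd_prime_pow hq).mp hdvd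
    have hle : Nat.card L ≤ Nat.card S := AddSubgroup.card_le_of_le hLS
    have hST : S = ⊤ := by
      interval_cases i
      · rw [hiS, hLcard] at hle
        simp at hle
        exact absurd hle (not_le.mpr hq.one_lt)
      · have : L = S := AddSubgroup.eq_of_le_of_card_ge hLS (by rw [hiS, hLcard, pow_one])
        exact absurd (this ▸ hu0S) hu0
      · exact AddSubgroup.eq_top_of_card_eq S (by rw [hiS, hV])
    intro u
    have hu : u ∈ S := by rw [hST]; exact AddSubgroup.mem_top u
    obtain ⟨y1, hy1, z1, hz1, hyz⟩ := AddSubgroup.mem_sup.mp hu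
    obtain ⟨a, ha⟩ := AddSubgroup.mem_zmultiples_iff.mp hy1
    obtain ⟨b, hb⟩ := AddSubgroup.mem_zmultiples_iff.mp hz1
    exact ⟨a, b, by rw [ha, hb, hyz]⟩
  obtain ⟨d, lam, hyu0⟩ := hgen (y • u0)
  by_cases hd : (q : ℤ) ∣ d - 1
  · -- unipotent case: y ^ q = 1
    exfalso
    have h1 : y • u0 = u0 + lam • v := by
      rw [hyu0, x76_zsmul_eq hqV hd u0, one_smul]
    have hpow : ∀ k : ℕ, y ^ k • u0 = u0 + ((k : ℤ) * lam) • v := by
      intro k
      induction k with
      | zero => simp
      | succ k ih =>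
        rw [pow_succ', mul_smul, ih, smul_add, smul_comm y, hyv, h1, add_assoc, ← add_zsmul]
        congr 2
        push_cast; ring
    have hpowv : ∀ k : ℕ, y ^ k • v = v := by
      intro k
      induction k with
      | zero => simp
      | succ k ih => rw [pow_succ', mul_smul, ih, hyv]
    have hq1 : y ^ q = 1 := by
      apply hB.faithful
      intro u
      obtain ⟨a, b, rfl⟩ := hgen u
      rw [smul_add, smul_comm (y ^ q), smul_comm (y ^ q), hpowv, hpow]
      have : ((q : ℤ) * lam) • v = (0 : ℤ) • v := x76_zsmul_eq hqV (by simp) v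
      rw [this, zero_smul, add_zero]
    have h2 : r ∣ q := by rw [← hy]; exact orderOf_dvd_of_pow_eq_one hq1
    exact hrq ((Nat.prime_dvd_prime_iff_eq hr hq).mp h2)
  · -- eigenvector with eigenvalue d ≠ 1
    have hcop : IsCoprime (q : ℤ) (d - 1) :=
      ((Nat.prime_iff_prime_int.mp hq).irreducible.coprime_iff_not_dvd).mpr hd
    obtain ⟨s, t, hst⟩ := hcop
    set μ : ℤ := lam * t with hμ
    set v' : V := u0 + μ • v with hv'
    have hyv' : y • v' = d • v' := by
      rw [hv', smul_add, smul_comm y, hyv, hyu0, smul_add, add_assoc, ← add_zsmul, smul_smul]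
      congr 1
      apply x76_zsmul_eq hqV
      refine ⟨lam * s, ?_⟩
      rw [hμ]
      linear_combination (-lam) * hst
    have hv'0 : v' ≠ 0 := by
      intro h
      apply hu0
      have : u0 = (-μ) • v := by
        rw [neg_smul]; exact eq_neg_of_add_eq_zero_left h
      rw [this]
      exact AddSubgroup.zsmul_mem _ (AddSubgroup.mem_zmultiples v) _
    have hyv'ne : y • v' ≠ v' := by
      intro h
      apply hd
      apply hord v' hv'0
      rw [sub_smul, one_smul, ← hyv', h, sub_self]
    have hpow : ∀ k : ℕ, y ^ k • v' = (d ^ k) • v' := by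
      intro k
      induction k with
      | zero => simp
      | succ k ih =>
        rw [pow_succ', mul_smul, ih, smul_comm y, hyv', smul_smul, pow_succ]
    have hyr : y ^ r = 1 := by rw [← hy]; exact pow_orderOf_eq_one y
    have hyinv : y⁻¹ = y ^ (r - 1) := by
      apply inv_eq_of_mul_eq_one_left
      rw [← pow_succ, Nat.sub_add_cancel hr.one_lt.le, hyr]
    set S' : Subgroup H := MulAction.stabilizer H v' with hS'
    have hyN : y ∈ Subgroup.normalizer (S' : Set H) := by
      rw [Subgroup.mem_normalizer_iff]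
      intro h
      constructor
      · intro hh
        have hh' : h • v' = v' := hh
        show (y * h * y⁻¹) • v' = v'
        rw [mul_smul, mul_smul, hyinv, hpow, smul_comm h, hh', ← hpow, ← hyinv, smul_inv_smul]
      · intro hh
        have hh' : (y * h * y⁻¹) • v' = v' := hh
        show h • v' = v'
        have h2 : h = y⁻¹ * (y * h * y⁻¹) * y := by group
        rw [h2, mul_smul, mul_smul, hyv', smul_comm (y * h * y⁻¹), hh', ← hyv', inv_smul_smul]
    have hyS' : y ∉ S' := fun h => hyv'ne h
    set N : Subgroup H := Subgroup.normalizer (S' : Set H) with hN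
    set ybar : N ⧸ S'.subgroupOf N := QuotientGroup.mk (⟨y, hyN⟩ : N) with hybar
    have hybar1 : ybar ^ r = 1 := by
      rw [hybar, ← QuotientGroup.mk_pow, QuotientGroup.eq_one_iff]
      have : (⟨y, hyN⟩ : N) ^ r = 1 := by
        apply Subtype.ext
        simp [hyr]
      rw [this]; exact one_mem _
    have hybar2 : ybar ≠ 1 := by
      rw [hybar, Ne, QuotientGroup.eq_one_iff, Subgroup.mem_subgroupOf]
      exact hyS'
    haveI := Fact.mk hr
    have hordbar : orderOf ybar = r := orderOf_eq_prime hybar1 hybar2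
    have h3 : r ∣ S'.relIndex N := by
      rw [← hordbar]; exact orderOf_dvd_natCard ybar
    have h4 : S'.relIndex N ∣ S'.index :=
      Dvd.intro _ (Subgroup.relIndex_mul_index (Subgroup.le_normalizer))
    obtain ⟨k, hk⟩ := hB.orbit v'
    have h5 : r ∣ p ^ k := by rw [← hk]; exact h3.trans h4
    exact (Nat.prime_dvd_prime_iff_eq hr hp).mp (hr.dvd_of_dvd_pow h5)

/-- **S4125, piece X76.** -/
theorem solvable_of_card_sq {q : ℕ} (hq : q.Prime) (hB : BaerAct p H V)
    (hV : Nat.card V = q ^ 2) (hqV : ∀ v : V, q • v = 0) : Group.IsSolvable H := by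
  classical
  have hp : p.Prime := Fact.out
  have hnt : Nontrivial V := by
    rw [← Finite.one_lt_card_iff_nontrivial, hV]
    exact Nat.one_lt_pow (by norm_num) hq.one_lt
  obtain ⟨v, hv⟩ := exists_ne (0 : V)
  obtain ⟨k, hk⟩ := hB.orbit v
  have hcard : Nat.card (MulAction.stabilizer H v) * p ^ k = Nat.card H := by
    rw [← hk]; exact Subgroup.card_mul_index _
  have hall : ∀ r : ℕ, r.Prime → r ∣ Nat.card H → r = p := by
    intro r hr hdvd
    by_contra hne
    have h1 : r ∣ Nat.card (MulAction.stabilizer H v) := by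
      rw [← hcard] at hdvd
      rcases (Nat.Prime.dvd_mul hr).mp hdvd with h | h
      · exact h
      · exact absurd ((Nat.prime_dvd_prime_iff_eq hr hp).mp (hr.dvd_of_dvd_pow h)) hne
    haveI := Fact.mk hr
    obtain ⟨y, hy⟩ := exists_prime_orderOf_dvd_card' r h1
    exact hne (x76_key hq hB hV hqV v hv y.1 y.2 r hr (by rw [← hy, Subgroup.orderOf_coe]))
  have hpg : IsPGroup p H :=
    IsPGroup.of_card (Nat.eq_prime_pow_of_unique_prime_dvd (Nat.card_pos.ne')
      (fun {d} hd hdvd => hall d hd hdvd))
  haveI := hpg.isNilpotent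
  infer_instance

end X76

end Cfsg.Agent.Lib.Helper29
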