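import Cfsg.Agent.Lib.Helper29.CharP
import Cfsg.Agent.Lib.Helper30.PLayer

set_option autoImplicit false
open scoped commutatorElement
open Cfsg
open Cfsg.Agent.Lib

namespace Cfsg.Agent.Lib.Helper29

universe u

section Balance

/-- Let `H` be a finite group with `E(H / O_{p'}(H)) = 1` (`H` is `p`-constrained), `B` a
`p`-subgroup and `D` a `p'`-subgroup of `C_H(B)` normalized by `C_H(B)`.  Then `D ≤ O_{p'}(H)`. -/
theorem le_pPrimeCore_of_constrained {H : Type u} [Group H] [Finite H] (p : ℕ) [Fact p.Prime]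
    (hl : layer (H ⧸ pPrimeCore p H) = ⊥)
    (B : Subgroup H) (hB : IsPGroup p B) (D : Subgroup H)
    (hDB : D ≤ Subgroup.centralizer (B : Set H))
    (hDc : (Nat.card D).Coprime p)
    (hDn : Subgroup.centralizer (B : Set H) ≤ Subgroup.normalizer (D : Set H)) :
    D ≤ pPrimeCore p H := by
  have hOn : (pPrimeCore p H).Normal := Helper30.pPrimeCore_normal p H
  have hbar : Subgroup.centralizer (pCore p (H ⧸ pPrimeCore p H) : Set (H ⧸ pPrimeCore p H)) ≤
      pCore p (H ⧸ pPrimeCore p H) :=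
    (Helper30.genFitting_eq_pCore_iff_centralizer p).mp
      (Helper30.genFitting_eq_pCore_of_cores p (Helper30.pPrimeCore_quotient_eq_bot p) hl)
  have hord : ∀ c ∈ D, orderOf (QuotientGroup.mk' (pPrimeCore p H) c) ∣ Nat.card D := by
    intro c hc
    have h1 : orderOf (QuotientGroup.mk' (pPrimeCore p H) c) ∣ orderOf c := orderOf_map_dvd _ c
    have h2 : orderOf c ∣ Nat.card D := by
      have := orderOf_dvd_natCard (⟨c, hc⟩ : ↥D)
      rwa [Subgroup.orderOf_mk] at this
    exact h1.trans h2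
  intro d hd
  rw [← QuotientGroup.eq_one_iff]
  apply Helper30.eq_one_of_local p hbar (U := B.map (QuotientGroup.mk' (pPrimeCore p H)))
    (hB.map _)
  · exact Nat.Coprime.coprime_dvd_left (hord d hd) hDc
  · rintro _ ⟨b, hb, rfl⟩
    have := Subgroup.mem_centralizer_iff.mp (hDB hd) b hb
    show (d : H ⧸ pPrimeCore p H) * (QuotientGroup.mk' (pPrimeCore p H) b) =
      QuotientGroup.mk' (pPrimeCore p H) b * d
    rw [QuotientGroup.mk'_apply, ← QuotientGroup.mk_mul, ← QuotientGroup.mk_mul, this]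
  · intro q hq
    obtain ⟨hq1, hq2⟩ := Subgroup.mem_inf.mp hq
    obtain ⟨x, hx, rfl⟩ := Helper30.exists_lift_centralizer p
      (Helper30.not_dvd_card_pPrimeCore p) hB hq2
    have hxD := hDn hx
    have hc : d * (x * d⁻¹ * x⁻¹) ∈ D :=
      mul_mem hd ((Subgroup.mem_normalizer_iff.mp hxD d⁻¹).mp (inv_mem hd))
    have hpc : QuotientGroup.mk' (pPrimeCore p H) (d * (x * d⁻¹ * x⁻¹)) ∈
        pCore p (H ⧸ pPrimeCore p H) := by
      have hn : (pCore p (H ⧸ pPrimeCore p H)).Normal := Helper30.pCore_normal p _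
      have e : QuotientGroup.mk' (pPrimeCore p H) (d * (x * d⁻¹ * x⁻¹)) =
          (QuotientGroup.mk' (pPrimeCore p H) d * QuotientGroup.mk' (pPrimeCore p H) x *
            (QuotientGroup.mk' (pPrimeCore p H) d)⁻¹) *
            (QuotientGroup.mk' (pPrimeCore p H) x)⁻¹ := by
        simp only [map_mul, map_inv, mul_assoc]
      rw [e]
      exact mul_mem (hn.conj_mem _ hq1 _) (inv_mem hq1)
    have h1 : QuotientGroup.mk' (pPrimeCore p H) (d * (x * d⁻¹ * x⁻¹)) = 1 := by
      obtain ⟨k, hk⟩ := (IsPGroup.iff_orderOf.mp (Helper30.pCore_isPGroup p)) ⟨_, hpc⟩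
      rw [Subgroup.orderOf_mk] at hk
      have h2 := hord _ hc
      have h3 : orderOf (QuotientGroup.mk' (pPrimeCore p H) (d * (x * d⁻¹ * x⁻¹))) = 1 :=
        Nat.eq_one_of_dvd_coprimes (Nat.Coprime.pow_right k hDc) h2 (hk ▸ dvd_rfl)
      exact orderOf_eq_one_iff.mp h3
    show QuotientGroup.mk' (pPrimeCore p H) d * QuotientGroup.mk' (pPrimeCore p H) x =
      QuotientGroup.mk' (pPrimeCore p H) x * QuotientGroup.mk' (pPrimeCore p H) d
    have e : QuotientGroup.mk' (pPrimeCore p H) (d * (x * d⁻¹ * x⁻¹)) =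
        (QuotientGroup.mk' (pPrimeCore p H) d * QuotientGroup.mk' (pPrimeCore p H) x) *
          (QuotientGroup.mk' (pPrimeCore p H) x * QuotientGroup.mk' (pPrimeCore p H) d)⁻¹ := by
      simp only [map_mul, map_inv, mul_assoc, mul_inv_rev]
    rw [e] at h1
    exact mul_inv_eq_one.mp h1

/-- a solvable group has trivial layer -/
theorem layer_eq_bot_of_isSolvable {H : Type*} [Group H] (hs : Group.IsSolvable H) :
    layer H = ⊥ := by
  rw [Helper30.layer_eq_bot_iff]
  intro K hK
  exact Helper30.comp_not_solvable hK inferInstance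

/-- solvable version of `le_pPrimeCore_of_constrained` -/
theorem le_pPrimeCore_of_solvable {H : Type u} [Group H] [Finite H] (p : ℕ) [Fact p.Prime]
    (hs : Group.IsSolvable H)
    (B : Subgroup H) (hB : IsPGroup p B) (D : Subgroup H)
    (hDB : D ≤ Subgroup.centralizer (B : Set H))
    (hDc : (Nat.card D).Coprime p)
    (hDn : Subgroup.centralizer (B : Set H) ≤ Subgroup.normalizer (D : Set H)) :
    D ≤ pPrimeCore p H := by
  have hOn : (pPrimeCore p H).Normal := Helper30.pPrimeCore_normal p H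
  have hsq : Group.IsSolvable (H ⧸ pPrimeCore p H) := inferInstance
  exact le_pPrimeCore_of_constrained p (layer_eq_bot_of_isSolvable hsq) B hB D hDB hDc hDn

end Balance

end Cfsg.Agent.Lib.Helper29
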