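import Mathlib
import Cfsg.Agent.Lib.Helper81.G2Base

/-!
# S4632 piece CNT: the number of idempotents `≠ 0, 1` of Zorn's algebra over a finite field
-/

set_option autoImplicit false

namespace Cfsg.Agent.Lib.Helper29.G2

open Cfsg Cfsg.Lie Matrix Cfsg.Agent.Lib.Helper81.G2Base

universe u

namespace G2CNTaux

variable {F : Type u} [Field F]

/-- the dot product functional -/
def dotHom (a : Fin 3 → F) : (Fin 3 → F) →+ F :=
  AddMonoidHom.mk' (fun b => a 0 * b 0 + a 1 * b 1 + a 2 * b 2)
    (by intro b b'; simp only [Pi.add_apply]; ring)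

theorem dotHom_apply (a b : Fin 3 → F) : dotHom a b = a 0 * b 0 + a 1 * b 1 + a 2 * b 2 := rfl

theorem dotHom_surj (a : Fin 3 → F) (ha : a ≠ 0) : Function.Surjective (dotHom a) := by
  intro c
  have h : a 0 ≠ 0 ∨ a 1 ≠ 0 ∨ a 2 ≠ 0 := by
    by_contra hcon
    push Not at hcon
    apply ha
    ext i
    fin_cases i
    · exact hcon.1
    · exact hcon.2.1
    · exact hcon.2.2
  rcases h with h | h | h
  · refine ⟨![c / a 0, 0, 0], ?_⟩
    rw [dotHom_apply]
    simp
    field_simp
  · refine ⟨![0, c / a 1, 0], ?_⟩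
    rw [dotHom_apply]
    simp
    field_simp
  · refine ⟨![0, 0, c / a 2], ?_⟩
    rw [dotHom_apply]
    simp
    field_simp

theorem card_fiber [Fintype F] [DecidableEq F] (a : Fin 3 → F) (ha : a ≠ 0) (c : F) :
    (Finset.univ.filter (fun b : Fin 3 → F => c = a 0 * b 0 + a 1 * b 1 + a 2 * b 2)).card =
      Fintype.card F ^ 2 := by
  have heq : ∀ c' : F, (Finset.univ.filter (fun b : Fin 3 → F => dotHom a b = c')).card =
      (Finset.univ.filter (fun b : Fin 3 → F => dotHom a b = c)).card := by
    intro c'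
    exact AddMonoidHom.card_fiber_eq_of_mem_range (dotHom a) (dotHom_surj a ha c')
      (dotHom_surj a ha c)
  have hsum : (Finset.univ : Finset (Fin 3 → F)).card =
      ∑ c' : F, (Finset.univ.filter (fun b : Fin 3 → F => dotHom a b = c')).card :=
    Finset.card_eq_sum_card_fiberwise (fun x _ => Finset.mem_coe.mpr (Finset.mem_univ _))
  simp only [heq, Finset.sum_const, Finset.card_univ, smul_eq_mul] at hsum
  rw [Fintype.card_pi_const] at hsum
  have hq : 0 < Fintype.card F := Fintype.card_pos
  have h2 : Fintype.card F * (Fintype.card F ^ 2) =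
      Fintype.card F * (Finset.univ.filter (fun b : Fin 3 → F => dotHom a b = c)).card := by
    rw [← hsum]; ring
  have h3 := Nat.eq_of_mul_eq_mul_left hq h2
  have hfil : (Finset.univ.filter
      (fun b : Fin 3 → F => c = a 0 * b 0 + a 1 * b 1 + a 2 * b 2)) =
      (Finset.univ.filter (fun b : Fin 3 → F => dotHom a b = c)) := by
    ext b
    rw [Finset.mem_filter, Finset.mem_filter, dotHom_apply]
    exact and_congr Iff.rfl eq_comm
  rw [hfil]
  exact h3.symm

/-- the solutions `b` of `t (1 - t) = a · b`, summed over `t` -/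
theorem sum_t [Fintype F] [DecidableEq F] (a : Fin 3 → F) :
    ∑ t : F, (Finset.univ.filter
      (fun b : Fin 3 → F => t * (1 - t) = a 0 * b 0 + a 1 * b 1 + a 2 * b 2)).card =
      Fintype.card F ^ 3 + (if a = 0 then Fintype.card F ^ 3 else 0) := by
  by_cases ha : a = 0
  · subst ha
    rw [if_pos rfl]
    have h1 : ∀ t : F, (Finset.univ.filter
        (fun b : Fin 3 → F => t * (1 - t) = (0 : Fin 3 → F) 0 * b 0 + (0 : Fin 3 → F) 1 * b 1 +
          (0 : Fin 3 → F) 2 * b 2)).card =
        if t = 0 ∨ t = 1 then Fintype.card F ^ 3 else 0 := by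
      intro t
      have hiff : t * (1 - t) = 0 ↔ (t = 0 ∨ t = 1) := by
        rw [mul_eq_zero, sub_eq_zero]
        exact or_congr Iff.rfl eq_comm
      by_cases ht : t = 0 ∨ t = 1
      · rw [if_pos ht, Finset.filter_true_of_mem, Finset.card_univ, Fintype.card_pi_const]
        intro b _
        simp only [Pi.zero_apply, zero_mul, add_zero]
        exact hiff.mpr ht
      · rw [if_neg ht, Finset.filter_false_of_mem, Finset.card_empty]
        intro b _
        simp only [Pi.zero_apply, zero_mul, add_zero]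
        exact fun h => ht (hiff.mp h)
    simp only [h1]
    rw [← Finset.sum_filter, Finset.sum_const, smul_eq_mul]
    have h2 : (Finset.univ.filter (fun t : F => t = 0 ∨ t = 1)) = {0, 1} := by
      ext t
      simp
    rw [h2, Finset.card_pair zero_ne_one]
    ring
  · rw [if_neg ha, add_zero]
    simp only [card_fiber a ha]
    rw [Finset.sum_const, Finset.card_univ, smul_eq_mul]
    ring

/-- the idempotents as triples `(a, t, b)` with `t (1 - t) = a · b` -/
def idemEquiv : (idem (F := F)) ≃
    {x : (Fin 3 → F) × F × (Fin 3 → F) //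
      x.2.1 * (1 - x.2.1) = x.1 0 * x.2.2 0 + x.1 1 * x.2.2 1 + x.1 2 * x.2.2 2} where
  toFun e := ⟨(![e.1 1, e.1 2, e.1 3], e.1 0, ![e.1 4, e.1 5, e.1 6]), by
    have := ((mem_idem_iff e.1).mp e.2).2
    simpa using this⟩
  invFun x := ⟨![x.1.2.1, x.1.1 0, x.1.1 1, x.1.1 2, x.1.2.2 0, x.1.2.2 1, x.1.2.2 2,
      1 - x.1.2.1], by
    rw [mem_idem_iff]
    refine ⟨rfl, ?_⟩
    have := x.2
    simpa using this⟩
  left_inv e := by
    apply Subtype.ext
    have h7 := ((mem_idem_iff e.1).mp e.2).1
    ext i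
    fin_cases i
    · rfl
    · rfl
    · rfl
    · rfl
    · rfl
    · rfl
    · rfl
    · exact h7.symm
  right_inv x := by
    apply Subtype.ext
    obtain ⟨⟨a, t, b⟩, hx⟩ := x
    simp only [Prod.mk.injEq]
    refine ⟨?_, rfl, ?_⟩
    · ext i
      fin_cases i <;> rfl
    · ext i
      fin_cases i <;> rfl

end G2CNTaux

open G2CNTaux in
/-- Piece CNT: the number of idempotents `≠ 0, 1` of Zorn's algebra. -/
theorem card_idem {F : Type u} [Field F] [Fintype F] :
    Nat.card (idem (F := F)) = Fintype.card F ^ 3 * (Fintype.card F ^ 3 + 1) := by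
  classical
  rw [Nat.card_congr idemEquiv, Nat.card_eq_fintype_card, Fintype.card_subtype,
    Finset.card_filter]
  rw [Fintype.sum_prod_type]
  have h1 : ∀ a : Fin 3 → F, (∑ y : F × (Fin 3 → F),
      if (a, y).2.1 * (1 - (a, y).2.1) = (a, y).1 0 * (a, y).2.2 0 + (a, y).1 1 * (a, y).2.2 1 +
        (a, y).1 2 * (a, y).2.2 2 then 1 else 0) =
      Fintype.card F ^ 3 + (if a = 0 then Fintype.card F ^ 3 else 0) := by
    intro a
    rw [Fintype.sum_prod_type, ← sum_t a]
    apply Finset.sum_congr rfl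
    intro t _
    rw [Finset.card_filter]
  simp only [h1]
  rw [Finset.sum_add_distrib, Finset.sum_const, Finset.card_univ, Fintype.card_pi_const,
    Finset.sum_ite_eq' Finset.univ (0 : Fin 3 → F), if_pos (Finset.mem_univ _), smul_eq_mul]
  ring

end Cfsg.Agent.Lib.Helper29.G2
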