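import Mathlib
import Cfsg.Agent.S0494
import Cfsg.Agent.S2119
import Cfsg.Agent.Lib.Helper66.G4L

/-!
# S2553, piece G4-D6S: a transitive nonsolvable subgroup of `S_6` of order 120 is isomorphic
to `S_5`.
-/

set_option autoImplicit false

namespace Cfsg.Agent.Lib.Helper29.G4

open Equiv

/-- `A_6` has no subgroup of order 120 (index 3). -/
theorem no_card_120_in_alt6 (T : Subgroup (Equiv.Perm (Fin 6))) (h : Nat.card T = 120)
    (hTA : T ≤ alternatingGroup (Fin 6)) : False := by
  haveI : IsSimpleGroup (alternatingGroup (Fin 6)) := alternatingGroup.isSimpleGroup (by simp)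
  have hAcard : Nat.card (alternatingGroup (Fin 6)) = 360 := by
    have h1 := two_mul_nat_card_alternatingGroup (α := Fin 6)
    rw [Nat.card_perm] at h1
    have h2 : (Nat.card (Fin 6)).factorial = 720 := by simp [Nat.factorial]
    rw [h2] at h1
    omega
  set A := alternatingGroup (Fin 6) with hA
  set T0 : Subgroup A := T.subgroupOf A with hT0
  have hT0card : Nat.card T0 = 120 := by
    rw [hT0, Nat.card_congr (Subgroup.subgroupOfEquivOfLe hTA).toEquiv, h]
  have hidx : T0.index = 3 := by
    have h1 := Subgroup.card_mul_index T0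
    rw [hT0card, hAcard] at h1; omega
  set φ : A →* Equiv.Perm (A ⧸ T0) := MulAction.toPermHom A (A ⧸ T0) with hφ
  rcases (MonoidHom.normal_ker φ).eq_bot_or_eq_top with hb | ht
  · have hinj : Function.Injective φ := (MonoidHom.ker_eq_bot_iff φ).mp hb
    have h1 : Nat.card A ≤ Nat.card (Equiv.Perm (A ⧸ T0)) :=
      Nat.card_le_card_of_injective φ hinj
    have h2 : Nat.card (A ⧸ T0) = 3 := hidx
    rw [Nat.card_perm, hAcard, h2] at h1
    norm_num [Nat.factorial] at h1
  · have h1 : T0 = ⊤ := by
      rw [eq_top_iff]
      intro a _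
      have ha : a ∈ φ.ker := by rw [ht]; exact Subgroup.mem_top a
      rw [MonoidHom.mem_ker] at ha
      have h2 : φ a ((1 : A) : A ⧸ T0) = ((1 : A) : A ⧸ T0) := by rw [ha]; rfl
      have h3 : (QuotientGroup.mk (a * 1) : A ⧸ T0) = QuotientGroup.mk 1 := h2
      have h4 := QuotientGroup.eq.mp h3
      have h5 : a = ((a * 1)⁻¹ * 1)⁻¹ := by group
      rw [h5]; exact inv_mem h4
    rw [h1, Subgroup.card_top, hAcard] at hT0card
    omega

/-- Piece G4-D6S with the order-60 simplicity criterion (piece L) as a hypothesis. -/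
theorem deg6_card_120_of
    (hL : ∀ {G : Type} [Group G] [Finite G], Nat.card G = 60 → ¬ Group.IsSolvable G →
      IsSimpleGroup G)
    (T : Subgroup (Equiv.Perm (Fin 6))) [MulAction.IsPretransitive T (Fin 6)]
    (h : Nat.card T = 120) (hT : ¬ Group.IsSolvable T) :
    Nonempty (T ≃* Equiv.Perm (Fin 5)) := by
  classical
  set sgn : T →* ℤˣ := Equiv.Perm.sign.comp T.subtype with hsgn
  set N : Subgroup T := sgn.ker with hN
  haveI hNn : N.Normal := MonoidHom.normal_ker sgn
  have hidx : N.index ∣ 2 := by
    rw [hN, Subgroup.index_ker]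
    have h1 := Subgroup.card_subgroup_dvd_card sgn.range
    simpa [Nat.card_eq_fintype_card] using h1
  have hmul : Nat.card N * N.index = 120 := by rw [Subgroup.card_mul_index, h]
  have hidx2 : N.index = 2 := by
    rcases (Nat.dvd_prime Nat.prime_two).mp hidx with h1 | h2
    · exfalso
      have hNtop : N = ⊤ := Subgroup.index_eq_one.mp h1
      have hTA : T ≤ alternatingGroup (Fin 6) := by
        intro t ht
        have h2 : (⟨t, ht⟩ : T) ∈ N := by rw [hNtop]; exact Subgroup.mem_top _
        rw [hN, MonoidHom.mem_ker] at h2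
        exact Equiv.Perm.mem_alternatingGroup.mpr h2
      exact no_card_120_in_alt6 T h hTA
    · exact h2
  have hNcard : Nat.card N = 60 := by rw [hidx2] at hmul; omega
  have hNns : ¬ Group.IsSolvable N := by
    intro hs
    apply hT
    exact solvable_of_ker_le_range N.subtype sgn (by rw [Subgroup.range_subtype])
  haveI hNsimple : IsSimpleGroup N := hL hNcard hNns
  obtain ⟨e⟩ := Cfsg.Agent.S0494.result (G := N) hNcard
  set c : T →* MulAut N := MulAut.conjNormal with hc
  have hcinj : Function.Injective c := by
    rw [injective_iff_map_eq_one]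
    intro z hz
    by_contra hz1
    have hzN : ∀ n : N, z * (n : T) = (n : T) * z := by
      intro n
      have h1 : ((c z n : N) : T) = (n : T) := by rw [hz]; rfl
      rw [hc, MulAut.conjNormal_apply] at h1
      calc z * (n : T) = (z * (n : T) * z⁻¹) * z := by group
        _ = (n : T) * z := by rw [h1]
    have hcb : Subgroup.center N = ⊥ := by
      rcases (inferInstance : (Subgroup.center N).Normal).eq_bot_or_eq_top with hb | ht
      · exact hb
      · exfalso
        apply hNns
        apply isSolvable_of_comm
        intro a b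
        have ha : a ∈ Subgroup.center N := by rw [ht]; exact Subgroup.mem_top a
        exact ((Subgroup.mem_center_iff.mp ha) b).symm
    have hzN' : z ∉ N := by
      intro hzin
      have hcen : (⟨z, hzin⟩ : N) ∈ Subgroup.center N := by
        rw [Subgroup.mem_center_iff]
        intro n
        apply Subtype.ext
        exact (hzN n).symm
      rw [hcb, Subgroup.mem_bot] at hcen
      exact hz1 (congrArg Subtype.val hcen)
    have hzc : ∀ t : T, z * t = t * z := by
      intro t
      by_cases ht : t ∈ N
      · exact hzN ⟨t, ht⟩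
      · have h1 : z * t ∈ N := by
          rw [Subgroup.mul_mem_iff_of_index_two hidx2]
          exact ⟨fun h => absurd h hzN', fun h => absurd h ht⟩
        have h2 := hzN ⟨z * t, h1⟩
        have h3 : z * (z * t) = z * (t * z) := by
          rw [show z * (t * z) = z * t * z by group]; exact h2
        exact mul_left_cancel h3
    haveI : Fact (Nat.Prime 5) := ⟨by norm_num⟩
    obtain ⟨y, hy⟩ := exists_prime_orderOf_dvd_card' (G := T) 5 (by rw [h]; norm_num)
    have hP : IsPGroup 5 (Subgroup.zpowers y) :=
      IsPGroup.of_card (n := 1) (by rw [Nat.card_zpowers, hy, pow_one])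
    have hmod := hP.card_modEq_card_fixedPoints (Fin 6)
    set F := MulAction.fixedPoints (Subgroup.zpowers y) (Fin 6) with hF
    have hFle : Nat.card F ≤ 6 := by
      have h1 := Finite.card_subtype_le (fun a : Fin 6 => a ∈ F)
      simpa using h1
    have hFne : Nat.card F ≠ 6 := by
      intro h6
      have h1 : F = Set.univ := by
        rw [Set.eq_univ_iff_ncard, ← Nat.card_coe_set_eq, h6]; simp
      have h2 : (y : Equiv.Perm (Fin 6)) = 1 := by
        apply Equiv.Perm.ext
        intro a
        have ha : a ∈ F := by rw [h1]; exact Set.mem_univ a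
        have h3 := ha ⟨y, Subgroup.mem_zpowers y⟩
        exact h3
      have h4 : y = 1 := Subtype.ext h2
      rw [h4, orderOf_one] at hy
      norm_num at hy
    have hF1 : Nat.card F = 1 := by
      have h1 : 6 ≡ Nat.card F [MOD 5] := by simpa using hmod
      unfold Nat.ModEq at h1
      omega
    obtain ⟨b, hb⟩ := Nat.card_eq_one_iff_exists.mp hF1
    have hzb : z • (b : Fin 6) = (b : Fin 6) := by
      have h1 : z • (b : Fin 6) ∈ F := by
        intro u
        have h2 : (u : T) • (z • (b : Fin 6)) = z • ((u : T) • (b : Fin 6)) := by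
          rw [← mul_smul, ← mul_smul, hzc]
        have h3 : (u : T) • (b : Fin 6) = (b : Fin 6) := b.2 u
        show (u : T) • (z • (b : Fin 6)) = z • (b : Fin 6)
        rw [h2, h3]
      exact congrArg Subtype.val (hb ⟨_, h1⟩)
    apply hz1
    apply Subtype.ext
    apply Equiv.Perm.ext
    intro a
    obtain ⟨g, hg⟩ := MulAction.exists_smul_eq T (b : Fin 6) a
    have h1 : z • a = a := by
      rw [← hg, ← mul_smul, hzc, mul_smul, hzb]
    exact h1
  have hbij5 := Cfsg.Agent.S2119.result 5 (by norm_num) (by norm_num)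
  set e5 : Equiv.Perm (Fin 5) ≃* MulAut (alternatingGroup (Fin 5)) :=
    MulEquiv.ofBijective _ hbij5 with he5
  set ψ : T →* Equiv.Perm (Fin 5) :=
    (e5.symm.toMonoidHom.comp (MulAut.congr e).toMonoidHom).comp c with hψ
  have hψinj : Function.Injective ψ :=
    e5.symm.injective.comp ((MulAut.congr e).injective.comp hcinj)
  have hψbij : Function.Bijective ψ := by
    apply (Nat.bijective_iff_injective_and_card ψ).mpr
    refine ⟨hψinj, ?_⟩
    rw [h, Nat.card_perm]
    simp [Nat.factorial]
  exact ⟨MulEquiv.ofBijective ψ hψbij⟩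

/-- **S2553, piece G4-D6S.** -/
theorem deg6_card_120 (T : Subgroup (Equiv.Perm (Fin 6))) [MulAction.IsPretransitive T (Fin 6)]
    (h : Nat.card T = 120) (hT : ¬ Group.IsSolvable T) :
    Nonempty (T ≃* Equiv.Perm (Fin 5)) :=
  deg6_card_120_of (fun h60 hns => Cfsg.Agent.Lib.Helper66.G4.simple_of_card_60 h60 hns) T h hT

end Cfsg.Agent.Lib.Helper29.G4
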