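import Mathlib
import Cfsg.Agent.Lib.Helper81.OSum
import Cfsg.Agent.Lib.Helper81.DeltaGrp
import Cfsg.Agent.Lib.Helper51.DicksonTwo
import Cfsg.Agent.Lib.Helper52.OmegaGeom
import Cfsg.Agent.Lib.Helper29.OmOG

/-!
# OMEGA-SYL piece BS (helper29): the spinor pair of a block-diagonal isometry.
-/

set_option autoImplicit false
set_option linter.unusedSectionVars false

namespace Cfsg.Agent.Lib.Helper29.OmBS

open Cfsg Cfsg.Agent.Lib.Helper51 Cfsg.Agent.Lib.Helper81.OSum Cfsg.Agent.Lib.Helper29.OmOG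

section BS

variable {ι₁ ι₂ : Type} [Fintype ι₁] [DecidableEq ι₁] [Fintype ι₂] [DecidableEq ι₂]
variable {F : Type*} [Field F]

theorem osum_elim_left (Q₁ : QuadraticForm F (ι₁ → F)) (Q₂ : QuadraticForm F (ι₂ → F))
    (v : ι₁ → F) : osum Q₁ Q₂ (Sum.elim v 0) = Q₁ v := by
  rw [osum_apply]
  have e1 : (fun i => (Sum.elim v (0 : ι₂ → F)) (Sum.inl i)) = v := rfl
  have e2 : (fun i => (Sum.elim v (0 : ι₂ → F)) (Sum.inr i)) = 0 := rfl
  rw [e1, e2, map_zero, add_zero]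

theorem osum_elim_right (Q₁ : QuadraticForm F (ι₁ → F)) (Q₂ : QuadraticForm F (ι₂ → F))
    (v : ι₂ → F) : osum Q₁ Q₂ (Sum.elim 0 v) = Q₂ v := by
  rw [osum_apply]
  have e1 : (fun i => (Sum.elim (0 : ι₁ → F) v) (Sum.inl i)) = 0 := rfl
  have e2 : (fun i => (Sum.elim (0 : ι₁ → F) v) (Sum.inr i)) = v := rfl
  rw [e1, e2, map_zero, zero_add]

theorem polar_osum_elim_left (Q₁ : QuadraticForm F (ι₁ → F)) (Q₂ : QuadraticForm F (ι₂ → F))
    (v : ι₁ → F) (x : ι₁ ⊕ ι₂ → F) :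
    QuadraticMap.polar ⇑(osum Q₁ Q₂) (Sum.elim v 0) x =
      QuadraticMap.polar ⇑Q₁ v (fun i => x (Sum.inl i)) := by
  rw [polar_osum]
  have e1 : (fun i => (Sum.elim v (0 : ι₂ → F)) (Sum.inl i)) = v := rfl
  have e2 : (fun i => (Sum.elim v (0 : ι₂ → F)) (Sum.inr i)) = 0 := rfl
  rw [e1, e2, QuadraticMap.polar_zero_left, add_zero]

theorem polar_osum_elim_right (Q₁ : QuadraticForm F (ι₁ → F)) (Q₂ : QuadraticForm F (ι₂ → F))
    (v : ι₂ → F) (x : ι₁ ⊕ ι₂ → F) :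
    QuadraticMap.polar ⇑(osum Q₁ Q₂) (Sum.elim 0 v) x =
      QuadraticMap.polar ⇑Q₂ v (fun i => x (Sum.inr i)) := by
  rw [polar_osum]
  have e1 : (fun i => (Sum.elim (0 : ι₁ → F) v) (Sum.inl i)) = 0 := rfl
  have e2 : (fun i => (Sum.elim (0 : ι₁ → F) v) (Sum.inr i)) = v := rfl
  rw [e1, e2, QuadraticMap.polar_zero_left, zero_add]

theorem coe_one_iso (Q : QuadraticForm F (ι₁ → F)) :
    (((1 : isometryGroup F ⇑Q) : Matrix.GeneralLinearGroup ι₁ F) : Matrix ι₁ ι₁ F) = 1 := rfl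

theorem blk_refl_left (Q₁ : QuadraticForm F (ι₁ → F)) (Q₂ : QuadraticForm F (ι₂ → F))
    (v : ι₁ → F) (hv : Q₁ v ≠ 0) (hv' : osum Q₁ Q₂ (Sum.elim v 0) ≠ 0) :
    blk Q₁ Q₂ (refl Q₁ v hv, 1) = refl (osum Q₁ Q₂) (Sum.elim v 0) hv' := by
  apply isometry_ext
  rw [coe_blk, coe_refl, coe_refl]
  apply matrix_ext_mulVec
  intro x
  rw [reflectionMatrix_mulVec, osum_elim_left, polar_osum_elim_left]
  funext i
  rcases i with i | i
  · have h := congrFun (diag_mulVec_inl (reflectionMatrix ⇑Q₁ v)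
      (((1 : isometryGroup F ⇑Q₂) : Matrix.GeneralLinearGroup ι₂ F) : Matrix ι₂ ι₂ F) x) i
    rw [reflectionMatrix_mulVec] at h
    rw [h]
    simp
  · have h := congrFun (diag_mulVec_inr (reflectionMatrix ⇑Q₁ v)
      (((1 : isometryGroup F ⇑Q₂) : Matrix.GeneralLinearGroup ι₂ F) : Matrix ι₂ ι₂ F) x) i
    have h1 : (((1 : isometryGroup F ⇑Q₂) : Matrix.GeneralLinearGroup ι₂ F) : Matrix ι₂ ι₂ F) = 1 :=
      rfl
    rw [h1, Matrix.one_mulVec] at h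
    refine h.trans ?_
    simp

theorem blk_refl_right (Q₁ : QuadraticForm F (ι₁ → F)) (Q₂ : QuadraticForm F (ι₂ → F))
    (v : ι₂ → F) (hv : Q₂ v ≠ 0) (hv' : osum Q₁ Q₂ (Sum.elim 0 v) ≠ 0) :
    blk Q₁ Q₂ (1, refl Q₂ v hv) = refl (osum Q₁ Q₂) (Sum.elim 0 v) hv' := by
  apply isometry_ext
  rw [coe_blk, coe_refl, coe_refl]
  apply matrix_ext_mulVec
  intro x
  rw [reflectionMatrix_mulVec, osum_elim_right, polar_osum_elim_right]
  funext i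
  rcases i with i | i
  · have h := congrFun (diag_mulVec_inl
      (((1 : isometryGroup F ⇑Q₁) : Matrix.GeneralLinearGroup ι₁ F) : Matrix ι₁ ι₁ F)
      (reflectionMatrix ⇑Q₂ v) x) i
    have h1 : (((1 : isometryGroup F ⇑Q₁) : Matrix.GeneralLinearGroup ι₁ F) : Matrix ι₁ ι₁ F) = 1 :=
      rfl
    rw [h1, Matrix.one_mulVec] at h
    refine h.trans ?_
    simp
  · have h := congrFun (diag_mulVec_inr
      (((1 : isometryGroup F ⇑Q₁) : Matrix.GeneralLinearGroup ι₁ F) : Matrix ι₁ ι₁ F)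
      (reflectionMatrix ⇑Q₂ v) x) i
    rw [reflectionMatrix_mulVec] at h
    rw [h]
    simp

variable [Fintype F]

theorem spinPair_blk_refl_left (h2 : (2 : F) ≠ 0) (δ₀ : F) (hδ : ¬ IsSquare δ₀)
    (Q₁ : QuadraticForm F (ι₁ → F)) (Q₂ : QuadraticForm F (ι₂ → F))
    (v : ι₁ → F) (hv : Q₁ v ≠ 0) :
    spinPair (osum Q₁ Q₂) δ₀ (blk Q₁ Q₂ (refl Q₁ v hv, 1)) = spinPair Q₁ δ₀ (refl Q₁ v hv) := by
  have hv' : osum Q₁ Q₂ (Sum.elim v 0) ≠ 0 := by rw [osum_elim_left]; exact hv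
  rw [blk_refl_left Q₁ Q₂ v hv hv']
  by_cases hsq : IsSquare (Q₁ v)
  · rw [spinPair_refl_of_isSquare Q₁ h2 δ₀ hδ v hv hsq,
      spinPair_refl_of_isSquare (osum Q₁ Q₂) h2 δ₀ hδ _ hv' (by rw [osum_elim_left]; exact hsq)]
  · rw [spinPair_refl_of_not_isSquare Q₁ h2 δ₀ hδ v hv hsq,
      spinPair_refl_of_not_isSquare (osum Q₁ Q₂) h2 δ₀ hδ _ hv'
        (by rw [osum_elim_left]; exact hsq)]

theorem spinPair_blk_refl_right (h2 : (2 : F) ≠ 0) (δ₀ : F) (hδ : ¬ IsSquare δ₀)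
    (Q₁ : QuadraticForm F (ι₁ → F)) (Q₂ : QuadraticForm F (ι₂ → F))
    (v : ι₂ → F) (hv : Q₂ v ≠ 0) :
    spinPair (osum Q₁ Q₂) δ₀ (blk Q₁ Q₂ (1, refl Q₂ v hv)) = spinPair Q₂ δ₀ (refl Q₂ v hv) := by
  have hv' : osum Q₁ Q₂ (Sum.elim 0 v) ≠ 0 := by rw [osum_elim_right]; exact hv
  rw [blk_refl_right Q₁ Q₂ v hv hv']
  by_cases hsq : IsSquare (Q₂ v)
  · rw [spinPair_refl_of_isSquare Q₂ h2 δ₀ hδ v hv hsq,
      spinPair_refl_of_isSquare (osum Q₁ Q₂) h2 δ₀ hδ _ hv' (by rw [osum_elim_right]; exact hsq)]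
  · rw [spinPair_refl_of_not_isSquare Q₂ h2 δ₀ hδ v hv hsq,
      spinPair_refl_of_not_isSquare (osum Q₁ Q₂) h2 δ₀ hδ _ hv'
        (by rw [osum_elim_right]; exact hsq)]

theorem spinPair_blk_reflList_left (h2 : (2 : F) ≠ 0) (δ₀ : F) (hδ : ¬ IsSquare δ₀)
    (Q₁ : QuadraticForm F (ι₁ → F)) (Q₂ : QuadraticForm F (ι₂ → F))
    (vs : List (ι₁ → F)) (hvs : ∀ v ∈ vs, Q₁ v ≠ 0) :
    spinPair (osum Q₁ Q₂) δ₀ (blk Q₁ Q₂ (reflList Q₁ vs hvs, 1)) =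
      spinPair Q₁ δ₀ (reflList Q₁ vs hvs) := by
  induction vs with
  | nil =>
    rw [reflList_nil]
    have e : ((1 : isometryGroup F ⇑Q₁), (1 : isometryGroup F ⇑Q₂)) = 1 := rfl
    rw [e, map_one, map_one, map_one]
  | cons v vs ih =>
    rw [reflList_cons]
    have e : (refl Q₁ v (hvs v List.mem_cons_self) *
          reflList Q₁ vs (fun w hw => hvs w (List.mem_cons_of_mem _ hw)),
        (1 : isometryGroup F ⇑Q₂)) =
        (refl Q₁ v (hvs v List.mem_cons_self), 1) *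
          (reflList Q₁ vs (fun w hw => hvs w (List.mem_cons_of_mem _ hw)), 1) := by
      rw [Prod.mk_mul_mk, one_mul]
    rw [e, map_mul, map_mul, map_mul, ih, spinPair_blk_refl_left h2 δ₀ hδ]

theorem spinPair_blk_reflList_right (h2 : (2 : F) ≠ 0) (δ₀ : F) (hδ : ¬ IsSquare δ₀)
    (Q₁ : QuadraticForm F (ι₁ → F)) (Q₂ : QuadraticForm F (ι₂ → F))
    (vs : List (ι₂ → F)) (hvs : ∀ v ∈ vs, Q₂ v ≠ 0) :
    spinPair (osum Q₁ Q₂) δ₀ (blk Q₁ Q₂ (1, reflList Q₂ vs hvs)) =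
      spinPair Q₂ δ₀ (reflList Q₂ vs hvs) := by
  induction vs with
  | nil =>
    rw [reflList_nil]
    have e : ((1 : isometryGroup F ⇑Q₁), (1 : isometryGroup F ⇑Q₂)) = 1 := rfl
    rw [e, map_one, map_one, map_one]
  | cons v vs ih =>
    rw [reflList_cons]
    have e : ((1 : isometryGroup F ⇑Q₁), refl Q₂ v (hvs v List.mem_cons_self) *
          reflList Q₂ vs (fun w hw => hvs w (List.mem_cons_of_mem _ hw))) =
        (1, refl Q₂ v (hvs v List.mem_cons_self)) *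
          (1, reflList Q₂ vs (fun w hw => hvs w (List.mem_cons_of_mem _ hw))) := by
      rw [Prod.mk_mul_mk, one_mul]
    rw [e, map_mul, map_mul, map_mul, ih, spinPair_blk_refl_right h2 δ₀ hδ]

theorem card_ne_two_of_two_ne_zero (h2 : (2 : F) ≠ 0) : Fintype.card F ≠ 2 := by
  intro h
  apply h2
  have h1 : ((Fintype.card F : ℕ) : F) = 0 := Nat.cast_card_eq_zero F
  rw [h] at h1
  exact_mod_cast h1

theorem spinPair_blk (h2 : (2 : F) ≠ 0) (δ₀ : F) (hδ : ¬ IsSquare δ₀)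
    (Q₁ : QuadraticForm F (ι₁ → F)) (Q₂ : QuadraticForm F (ι₂ → F))
    (hQ₁ : (QuadraticMap.polarBilin Q₁).Nondegenerate)
    (hQ₂ : (QuadraticMap.polarBilin Q₂).Nondegenerate)
    (g₁ : isometryGroup F ⇑Q₁) (g₂ : isometryGroup F ⇑Q₂) :
    spinPair (osum Q₁ Q₂) δ₀ (blk Q₁ Q₂ (g₁, g₂)) = spinPair Q₁ δ₀ g₁ * spinPair Q₂ δ₀ g₂ := by
  have hF : Fintype.card F ≠ 2 := card_ne_two_of_two_ne_zero h2
  obtain ⟨vs, hvs, rfl⟩ := hall_of_finite Q₁ hQ₁ (Or.inl hF) g₁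
  obtain ⟨ws, hws, rfl⟩ := hall_of_finite Q₂ hQ₂ (Or.inl hF) g₂
  have e : (reflList Q₁ vs hvs, reflList Q₂ ws hws) =
      (reflList Q₁ vs hvs, (1 : isometryGroup F ⇑Q₂)) *
        ((1 : isometryGroup F ⇑Q₁), reflList Q₂ ws hws) := by
    rw [Prod.mk_mul_mk, one_mul, mul_one]
  rw [e, map_mul, map_mul, spinPair_blk_reflList_left h2 δ₀ hδ,
    spinPair_blk_reflList_right h2 δ₀ hδ]

end BS

end Cfsg.Agent.Lib.Helper29.OmBS
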