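import Mathlib
import Cfsg.Agent.Lib.Helper48.QADefs

/-!
# Project QA (helper48, S2787), piece QA-QFIELD (helper29)

A maximal ideal of `ℤ[X]` containing the annihilator of the idempotent `P ^ j`; it does not
contain `X` and contains `p`.
-/

set_option autoImplicit false

universe u

namespace Cfsg.Agent.Lib.Helper48.QA

open Matrix Polynomial

local notation "SL2" F => Matrix.SpecialLinearGroup (Fin 2) F
local notation "PSL2" F => Matrix.ProjectiveSpecialLinearGroup (Fin 2) F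
local notation "M2" F => Matrix (Fin 2) (Fin 2) F

/-- QA-QFIELD -/
theorem exists_max {R : Type*} [Ring R] {p : ℕ} (hpR : (p : R) = 0) (P : R) (j : ℕ) (hj : 1 ≤ j)
    (he : P ^ j * P ^ j = P ^ j) (hne : P ^ j ≠ 0) :
    ∃ 𝔪 : Ideal ℤ[X], 𝔪.IsMaximal ∧ (∀ f : ℤ[X], aeval P f * P ^ j = 0 → f ∈ 𝔪) ∧
      (X : ℤ[X]) ∉ 𝔪 ∧ ((p : ℕ) : ℤ[X]) ∈ 𝔪 := by
  let I : Ideal ℤ[X] :=
    { carrier := {f | aeval P f * P ^ j = 0}
      add_mem' := by
        intro f g hf hg
        simp only [Set.mem_setOf_eq] at hf hg ⊢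
        rw [map_add, add_mul, hf, hg, add_zero]
      zero_mem' := by
        simp only [Set.mem_setOf_eq]
        rw [map_zero, zero_mul]
      smul_mem' := by
        intro c f hf
        simp only [Set.mem_setOf_eq] at hf ⊢
        rw [smul_eq_mul, map_mul, mul_assoc, hf, mul_zero] }
  have hmemI : ∀ f : ℤ[X], f ∈ I ↔ aeval P f * P ^ j = 0 := fun f => Iff.rfl
  have hI : I ≠ ⊤ := by
    intro h
    have h1 : (1 : ℤ[X]) ∈ I := by rw [h]; exact Submodule.mem_top
    rw [hmemI, map_one, one_mul] at h1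
    exact hne h1
  obtain ⟨𝔪, hmax, hle⟩ := Ideal.exists_le_maximal I hI
  refine ⟨𝔪, hmax, fun f hf => hle ((hmemI f).mpr hf), ?_, ?_⟩
  · intro hX
    have h1 : (X : ℤ[X]) ^ j - 1 ∈ 𝔪 := by
      apply hle
      rw [hmemI, map_sub, map_pow, aeval_X, map_one, sub_mul, one_mul, he, sub_self]
    have h2 : (X : ℤ[X]) ^ j ∈ 𝔪 := Ideal.pow_mem_of_mem 𝔪 hX j (by omega)
    have h3 : (1 : ℤ[X]) ∈ 𝔪 := by
      have h := 𝔪.sub_mem h2 h1
      rwa [sub_sub_cancel] at h
    exact hmax.ne_top ((Ideal.eq_top_iff_one 𝔪).mpr h3)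
  · apply hle
    rw [hmemI, map_natCast, hpR, zero_mul]

end Cfsg.Agent.Lib.Helper48.QA
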