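import Mathlib
import Cfsg.Agent.Lib.Helper48.QADefs

/-!
# Project QA (helper48, S2787), piece QA-QSUB (helper29)

The graph subgroup of `Rˣ × SL₂(ℤ[X]/𝔪)` built from the relation `Rel`.
-/

set_option autoImplicit false

universe u

namespace Cfsg.Agent.Lib.Helper48.QA

open Matrix Polynomial

local notation "SL2" F => Matrix.SpecialLinearGroup (Fin 2) F
local notation "PSL2" F => Matrix.ProjectiveSpecialLinearGroup (Fin 2) F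
local notation "M2" F => Matrix (Fin 2) (Fin 2) F

/-- QA-QSUB -/
theorem exists_graph {R : Type*} [Ring R] (M P e : R) (𝔪 : Ideal ℤ[X])
    (hmul : ∀ (s s' : R) (A A' : M2 ℤ[X]), Rel M P e s A → Rel M P e s' A' →
      Rel M P e (s * s') (A * A'))
    (hinv : ∀ (s t : R), t * s = 1 → ∀ A : M2 ℤ[X], A.det = 1 → Rel M P e s A →
      Rel M P e t A.adjugate)
    (hone : ∀ A : M2 ℤ[X], Rel M P e 1 A →
      (A 0 0 - 1) ∈ 𝔪 ∧ A 0 1 ∈ 𝔪 ∧ A 1 0 ∈ 𝔪 ∧ (A 1 1 - 1) ∈ 𝔪) :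
    ∃ 𝒯 : Subgroup (Rˣ × SL2 (ℤ[X] ⧸ 𝔪)),
      (∀ b, ((1 : Rˣ), b) ∈ 𝒯 → b = 1) ∧
      ∀ (s : Rˣ) (A : SL2 ℤ[X]), Rel M P e (s : R) (A : M2 ℤ[X]) →
        (s, Matrix.SpecialLinearGroup.map (Ideal.Quotient.mk 𝔪) A) ∈ 𝒯 := by
  let 𝒯 : Subgroup (Rˣ × SL2 (ℤ[X] ⧸ 𝔪)) :=
    { carrier := {t | ∃ A : SL2 ℤ[X], Rel M P e (t.1 : R) (A : M2 ℤ[X]) ∧
        Matrix.SpecialLinearGroup.map (Ideal.Quotient.mk 𝔪) A = t.2}
      mul_mem' := by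
        rintro ⟨s, B⟩ ⟨s', B'⟩ ⟨A, hA, hAB⟩ ⟨A', hA', hAB'⟩
        refine ⟨A * A', ?_, ?_⟩
        · have h := hmul _ _ _ _ hA hA'
          simpa using h
        · simp only [map_mul, Prod.mk_mul_mk]
          rw [hAB, hAB']
      one_mem' := by
        refine ⟨1, ?_, ?_⟩
        · simp [Rel]
        · simp
      inv_mem' := by
        rintro ⟨s, B⟩ ⟨A, hA, hAB⟩
        refine ⟨A⁻¹, ?_, ?_⟩
        · have h := hinv (s : R) ((s⁻¹ : Rˣ) : R) (Units.inv_mul s) (A : M2 ℤ[X]) A.det_coe hA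
          simpa [Matrix.SpecialLinearGroup.coe_inv] using h
        · simp only [map_inv, Prod.inv_mk]
          rw [hAB] }
  have hmem : ∀ t : Rˣ × SL2 (ℤ[X] ⧸ 𝔪), t ∈ 𝒯 ↔ ∃ A : SL2 ℤ[X],
      Rel M P e (t.1 : R) (A : M2 ℤ[X]) ∧
        Matrix.SpecialLinearGroup.map (Ideal.Quotient.mk 𝔪) A = t.2 := fun t => Iff.rfl
  refine ⟨𝒯, ?_, ?_⟩
  · intro b hb
    obtain ⟨A, hA, hAb⟩ := (hmem _).mp hb
    simp only [Units.val_one] at hA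
    obtain ⟨h00, h01, h10, h11⟩ := hone _ hA
    have hAb' : Matrix.SpecialLinearGroup.map (Ideal.Quotient.mk 𝔪) A = b := hAb
    rw [← hAb']
    have e00 : Ideal.Quotient.mk 𝔪 ((A : M2 ℤ[X]) 0 0) = 1 := by
      rw [← map_one (Ideal.Quotient.mk 𝔪)]
      exact Ideal.Quotient.eq.mpr h00
    have e11 : Ideal.Quotient.mk 𝔪 ((A : M2 ℤ[X]) 1 1) = 1 := by
      rw [← map_one (Ideal.Quotient.mk 𝔪)]
      exact Ideal.Quotient.eq.mpr h11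
    have e01 : Ideal.Quotient.mk 𝔪 ((A : M2 ℤ[X]) 0 1) = 0 :=
      Ideal.Quotient.eq_zero_iff_mem.mpr h01
    have e10 : Ideal.Quotient.mk 𝔪 ((A : M2 ℤ[X]) 1 0) = 0 :=
      Ideal.Quotient.eq_zero_iff_mem.mpr h10
    ext i j
    fin_cases i <;> fin_cases j <;>
      simp [Matrix.SpecialLinearGroup.map_apply_coe, e00, e01, e10, e11]
  · intro s A h
    exact (hmem _).mpr ⟨A, h, rfl⟩

end Cfsg.Agent.Lib.Helper48.QA
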