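import Mathlib
import Cfsg.Agent.Lib.Helper47.S76Defs

/-!
# S5976 project S76, piece CONJ

Two skew-adjoint matrices `θ`, `θ'` with `θ² = θ'² = δ` (`δ` a non-square, `2 ≠ 0`) are
conjugate by an element of the symplectic group.
-/

set_option autoImplicit false

namespace Cfsg.Agent.Lib.Helper29.S76CONJ

open Matrix Polynomial Cfsg.Agent.Lib.Helper47 Cfsg.Agent.Lib.Helper47.S76

universe u

variable {F : Type u} [Field F]

/-- `a + bT` is an isometry of the standard alternating form when `a² - δ b² = 1`. -/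
theorem conj_isometry (d : ℕ) (δ a b : F) (hab : a * a - δ * (b * b) = 1)
    (T : Matrix (Fin d ⊕ Fin d) (Fin d ⊕ Fin d) F) (hT : IsSkew d T)
    (hT2 : T * T = δ • (1 : Matrix (Fin d ⊕ Fin d) (Fin d ⊕ Fin d) F))
    (u v : Fin d ⊕ Fin d → F) :
    spForm (Fin d) F ((a • (1 : Matrix (Fin d ⊕ Fin d) (Fin d ⊕ Fin d) F) + b • T) *ᵥ u)
      ((a • (1 : Matrix (Fin d ⊕ Fin d) (Fin d ⊕ Fin d) F) + b • T) *ᵥ v)
      = spForm (Fin d) F u v := by
  have e : ∀ w : Fin d ⊕ Fin d → F,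
      (a • (1 : Matrix (Fin d ⊕ Fin d) (Fin d ⊕ Fin d) F) + b • T) *ᵥ w
        = a • w + b • (T *ᵥ w) := by
    intro w
    rw [Matrix.add_mulVec, Matrix.smul_mulVec, Matrix.smul_mulVec, Matrix.one_mulVec]
  have h1 : spForm (Fin d) F (T *ᵥ u) v = - spForm (Fin d) F u (T *ᵥ v) := hT u v
  have h2 : spForm (Fin d) F (T *ᵥ u) (T *ᵥ v) = - (δ * spForm (Fin d) F u v) := by
    rw [hT u (T *ᵥ v), Matrix.mulVec_mulVec, hT2, Matrix.smul_mulVec, Matrix.one_mulVec,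
      spForm_smul_right']
  rw [e u, e v]
  simp only [spForm_add_left', spForm_add_right', spForm_smul_left', spForm_smul_right', h1, h2]
  linear_combination (spForm (Fin d) F u v) * hab

/-- `s = a + bT` satisfies `s² - 2a s + 1 = 0`. -/
theorem conj_quad (d : ℕ) (δ a b : F) (hab : a * a - δ * (b * b) = 1)
    (T : Matrix (Fin d ⊕ Fin d) (Fin d ⊕ Fin d) F)
    (hT2 : T * T = δ • (1 : Matrix (Fin d ⊕ Fin d) (Fin d ⊕ Fin d) F)) :
    (a • (1 : Matrix (Fin d ⊕ Fin d) (Fin d ⊕ Fin d) F) + b • T)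
        * (a • (1 : Matrix (Fin d ⊕ Fin d) (Fin d ⊕ Fin d) F) + b • T)
      - (2 * a) • (a • (1 : Matrix (Fin d ⊕ Fin d) (Fin d ⊕ Fin d) F) + b • T) + 1 = 0 := by
  have key : (a • (1 : Matrix (Fin d ⊕ Fin d) (Fin d ⊕ Fin d) F) + b • T)
        * (a • (1 : Matrix (Fin d ⊕ Fin d) (Fin d ⊕ Fin d) F) + b • T)
      - (2 * a) • (a • (1 : Matrix (Fin d ⊕ Fin d) (Fin d ⊕ Fin d) F) + b • T) + 1
      = (a * a + b * b * δ - 2 * a * a + 1) • (1 : Matrix (Fin d ⊕ Fin d) (Fin d ⊕ Fin d) F)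
        + (a * b + b * a - 2 * a * b) • T := by
    simp only [Matrix.add_mul, Matrix.mul_add, Matrix.smul_mul, Matrix.mul_smul, Matrix.one_mul,
      Matrix.mul_one, hT2]
    module
  have h1 : a * a + b * b * δ - 2 * a * a + 1 = 0 := by linear_combination -hab
  have h2 : a * b + b * a - 2 * a * b = 0 := by ring
  rw [key, h1, h2, zero_smul, zero_smul, add_zero]

/-- `toLin' s` is killed by `X² - 2a X + 1`. -/
theorem conj_aeval (d : ℕ) (δ a b : F) (hab : a * a - δ * (b * b) = 1)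
    (T : Matrix (Fin d ⊕ Fin d) (Fin d ⊕ Fin d) F)
    (hT2 : T * T = δ • (1 : Matrix (Fin d ⊕ Fin d) (Fin d ⊕ Fin d) F)) :
    aeval (Matrix.toLin' (a • (1 : Matrix (Fin d ⊕ Fin d) (Fin d ⊕ Fin d) F) + b • T))
      (X ^ 2 - C (2 * a) * X + 1 : F[X]) = 0 := by
  have h0 : Matrix.toLin' (a • (1 : Matrix (Fin d ⊕ Fin d) (Fin d ⊕ Fin d) F) + b • T)
      = Matrix.toLinAlgEquiv' (a • (1 : Matrix (Fin d ⊕ Fin d) (Fin d ⊕ Fin d) F) + b • T) := rfl
  rw [h0, Polynomial.aeval_algHom_apply]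
  have h1 : aeval (a • (1 : Matrix (Fin d ⊕ Fin d) (Fin d ⊕ Fin d) F) + b • T)
      (X ^ 2 - C (2 * a) * X + 1 : F[X]) = 0 := by
    rw [map_add, map_sub, map_pow, map_mul, aeval_X, aeval_C, map_one, sq,
      Algebra.algebraMap_eq_smul_one, Matrix.smul_mul, Matrix.one_mul]
    exact conj_quad d δ a b hab T hT2
  rw [h1, map_zero]

theorem conj_natDegree (a : F) : (X ^ 2 - C (2 * a) * X + 1 : F[X]).natDegree = 2 := by
  compute_degree!

theorem conj_monic (a : F) : (X ^ 2 - C (2 * a) * X + 1 : F[X]).Monic := by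
  monicity!

theorem conj_irreducible (δ a b : F) (hab : a * a - δ * (b * b) = 1) (hb0 : b ≠ 0)
    (hirr : ∀ c : F, c * c ≠ δ) : Irreducible (X ^ 2 - C (2 * a) * X + 1 : F[X]) := by
  apply Polynomial.irreducible_of_degree_le_three_of_not_isRoot
  · rw [conj_natDegree]
    decide
  · intro c hc
    rw [IsRoot.def] at hc
    simp only [eval_add, eval_sub, eval_mul, eval_pow, eval_X, eval_C, eval_one] at hc
    apply hirr ((c - a) / b)
    field_simp
    linear_combination hc + hab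

/-- PIECE CONJ -/
theorem conj_theta [Fintype F] (d : ℕ) (h2 : (2 : F) ≠ 0) (δ : F) (hirr : ∀ c : F, c * c ≠ δ)
    (θ θ' : Matrix (Fin d ⊕ Fin d) (Fin d ⊕ Fin d) F) (hθ : IsSkew d θ)
    (hθ2 : θ * θ = δ • (1 : Matrix (Fin d ⊕ Fin d) (Fin d ⊕ Fin d) F)) (hθ' : IsSkew d θ')
    (hθ'2 : θ' * θ' = δ • (1 : Matrix (Fin d ⊕ Fin d) (Fin d ⊕ Fin d) F)) :
    ∃ P : Matrix (Fin d ⊕ Fin d) (Fin d ⊕ Fin d) F, P ∈ Matrix.symplecticGroup (Fin d) F ∧
      P * θ' = θ * P := by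
  classical
  have hδ1 : (1 : F) - δ ≠ 0 := by
    intro h
    exact hirr 1 (by linear_combination h)
  obtain ⟨a, ha⟩ : ∃ a : F, a = (1 + δ) / (1 - δ) := ⟨_, rfl⟩
  obtain ⟨b, hb⟩ : ∃ b : F, b = 2 / (1 - δ) := ⟨_, rfl⟩
  have hb0 : b ≠ 0 := by rw [hb]; exact div_ne_zero h2 hδ1
  have hab : a * a - δ * (b * b) = 1 := by
    rw [ha, hb]
    field_simp
    ring
  obtain ⟨s, hs⟩ : ∃ s : Matrix (Fin d ⊕ Fin d) (Fin d ⊕ Fin d) F,
      s = a • (1 : Matrix (Fin d ⊕ Fin d) (Fin d ⊕ Fin d) F) + b • θ := ⟨_, rfl⟩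
  obtain ⟨s', hs'⟩ : ∃ s' : Matrix (Fin d ⊕ Fin d) (Fin d ⊕ Fin d) F,
      s' = a • (1 : Matrix (Fin d ⊕ Fin d) (Fin d ⊕ Fin d) F) + b • θ' := ⟨_, rfl⟩
  have hfi := conj_irreducible δ a b hab hb0 hirr
  have hfm := conj_monic a
  have hfd := conj_natDegree a
  have hsep : (X ^ 2 - C (2 * a) * X + 1 : F[X]).Separable :=
    PerfectField.separable_of_irreducible hfi
  have haev : aeval (Matrix.toLin' s) (X ^ 2 - C (2 * a) * X + 1 : F[X]) = 0 := by
    rw [hs]; exact conj_aeval d δ a b hab θ hθ2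
  have haev' : aeval (Matrix.toLin' s') (X ^ 2 - C (2 * a) * X + 1 : F[X]) = 0 := by
    rw [hs']; exact conj_aeval d δ a b hab θ' hθ'2
  obtain ⟨k, hk, hkd⟩ := charpoly_eq_pow_of_aeval (Fin d ⊕ Fin d → F) (Matrix.toLin' s)
    (X ^ 2 - C (2 * a) * X + 1 : F[X]) hfm hfi hsep haev
  obtain ⟨k', hk', hkd'⟩ := charpoly_eq_pow_of_aeval (Fin d ⊕ Fin d → F) (Matrix.toLin' s')
    (X ^ 2 - C (2 * a) * X + 1 : F[X]) hfm hfi hsep haev'
  have hkk : k' = k := by
    rw [hfd] at hkd hkd'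
    omega
  have hchar : (Matrix.toLin' s').charpoly = (Matrix.toLin' s).charpoly := by
    rw [hk, hk', hkk]
  have hiso : ∀ x y : Fin d ⊕ Fin d → F,
      spForm (Fin d) F (Matrix.toLin' s x) (Matrix.toLin' s y) = spForm (Fin d) F x y := by
    intro x y
    rw [Matrix.toLin'_apply, Matrix.toLin'_apply, hs]
    exact conj_isometry d δ a b hab θ hθ hθ2 x y
  have hiso' : ∀ x y : Fin d ⊕ Fin d → F,
      spForm (Fin d) F (Matrix.toLin' s' x) (Matrix.toLin' s' y) = spForm (Fin d) F x y := by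
    intro x y
    rw [Matrix.toLin'_apply, Matrix.toLin'_apply, hs']
    exact conj_isometry d δ a b hab θ' hθ' hθ'2 x y
  obtain ⟨φ, hφg, hφB⟩ := exists_isometry_conj (σ := RingHom.id F) (ε := -1) (fun _ => rfl)
    (Or.inl ⟨rfl, rfl⟩) _ (Fin d ⊕ Fin d → F) (Fin d ⊕ Fin d → F) (spForm (Fin d) F)
    (spForm (Fin d) F) (Matrix.toLin' s') (Matrix.toLin' s) rfl spForm_isSForm spForm_isSForm
    spForm_nondeg spForm_nondeg (fun _ => spForm_alt) (fun _ => spForm_alt)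
    (Module.End.isSemisimple_of_squarefree_aeval_eq_zero hsep.squarefree haev')
    (Module.End.isSemisimple_of_squarefree_aeval_eq_zero hsep.squarefree haev)
    hiso' hiso hchar
  have hP : LinearMap.toMatrix' φ.toLinearMap ∈ Matrix.symplecticGroup (Fin d) F :=
    mem_sp_of_isometry (fun x y => by
      rw [← Matrix.toLin'_apply, ← Matrix.toLin'_apply, Matrix.toLin'_toMatrix']
      exact hφB x y)
  have hPg : LinearMap.toMatrix' φ.toLinearMap * s' = s * LinearMap.toMatrix' φ.toLinearMap := by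
    apply Matrix.toLin'.injective
    rw [Matrix.toLin'_mul, Matrix.toLin'_mul, Matrix.toLin'_toMatrix']
    apply LinearMap.ext
    intro x
    rw [LinearMap.comp_apply, LinearMap.comp_apply]
    exact hφg x
  refine ⟨LinearMap.toMatrix' φ.toLinearMap, hP, ?_⟩
  have h3 : b • (LinearMap.toMatrix' φ.toLinearMap * θ')
      = b • (θ * LinearMap.toMatrix' φ.toLinearMap) := by
    have h4 := hPg
    rw [hs', hs, Matrix.mul_add, Matrix.add_mul, Matrix.mul_smul, Matrix.smul_mul,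
      Matrix.mul_one, Matrix.one_mul, Matrix.mul_smul, Matrix.smul_mul] at h4
    exact add_left_cancel h4
  exact smul_right_injective _ hb0 h3

end Cfsg.Agent.Lib.Helper29.S76CONJ
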