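import Mathlib
import Cfsg.Agent.Lib.Helper11.S983Defs

/-!
# S0983 piece T2 (helper29): Prop-level Sylow data give a member of `cands N p`
-/

set_option autoImplicit false

namespace Cfsg.Agent.S983

/-- a legal number of fixed Sylow subgroups passes the Bool test -/
theorem t2_fixOK {p d q : ℕ}
    (h : ∃ f : ℕ, f % p = 1 ∧ f % q = d % q ∧ f < d ∧ (q = 2 → f % 4 = d % 4)) :
    fixOK p d q = true := by
  obtain ⟨f, hf1, hf2, hf3, hf4⟩ := h
  unfold fixOK
  rw [List.any_eq_true]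
  refine ⟨f, List.mem_range.2 hf3, ?_⟩
  simp only [Bool.and_eq_true, Bool.or_eq_true, decide_eq_true_eq]
  refine ⟨hf1, hf2, ?_⟩
  by_cases hq : q = 2
  · exact Or.inr (hf4 hq)
  · exact Or.inl hq

/-- a Fermat prime `2 ^ k + 1 > 3` is `5`, `17` or exceeds `200` -/
theorem t2_fermat {p k : ℕ} (hp : p.Prime) (h3 : 3 < p) (hk : p = 2 ^ k + 1) :
    p = 5 ∨ p = 17 ∨ 200 < p := by
  by_cases h200 : 200 < p
  · exact Or.inr (Or.inr h200)
  · have hk8 : k < 8 := by
      by_contra hk8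
      have h256 : 2 ^ 8 ≤ 2 ^ k := Nat.pow_le_pow_right (by norm_num) (by omega)
      norm_num at h256
      omega
    have hpv : p = 2 ∨ p = 3 ∨ p = 5 ∨ p = 9 ∨ p = 17 ∨ p = 33 ∨ p = 65 ∨ p = 129 := by
      interval_cases k <;> norm_num at hk <;> omega
    rcases hpv with rfl | rfl | rfl | rfl | rfl | rfl | rfl | rfl
    · omega
    · omega
    · exact Or.inl rfl
    · exact absurd hp (by norm_num)
    · exact Or.inr (Or.inl rfl)
    · exact absurd hp (by norm_num)
    · exact absurd hp (by norm_num)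
    · exact absurd hp (by norm_num)

/-- the Brauer--Reynolds alternatives pass the Bool test -/
theorem t2_brOK {N p n : ℕ} (hp : p.Prime)
    (h8 : (3 < p ∧ (p ^ 2 - 1) * p ∣ 2 * N) ∨
      (3 < p ∧ (∃ k : ℕ, p = 2 ^ k + 1) ∧ (p - 1) * p * (p - 2) ∣ N) ∨
      ∃ h u : ℕ, 0 < h ∧ 0 < u ∧ n * (u + 1) = h * u * p + u ^ 2 + u + h) :
    brOK N p n = true := by
  unfold brOK
  rcases h8 with ⟨h3p, hdv⟩ | ⟨h3p, ⟨k, hk⟩, hdv⟩ | ⟨h, u, hh, hu, heq⟩
  · rw [Bool.or_eq_true]
    left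
    simp only [Bool.and_eq_true, Bool.or_eq_true, decide_eq_true_eq]
    exact ⟨h3p, Or.inl hdv⟩
  · rw [Bool.or_eq_true]
    left
    simp only [Bool.and_eq_true, Bool.or_eq_true, decide_eq_true_eq]
    exact ⟨h3p, Or.inr ⟨t2_fermat hp h3p hk, hdv⟩⟩
  · rw [Bool.or_eq_true]
    right
    rw [List.any_eq_true]
    have hlt : u ^ 2 + u < n * (u + 1) := by
      rw [heq]
      have h0 : 0 ≤ h * u * p := Nat.zero_le _
      linarith
    have hule : u ≤ n := by
      by_contra hcon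
      have hnu : n < u := by omega
      have h1 : n * (u + 1) < u * (u + 1) := Nat.mul_lt_mul_of_pos_right hnu (by omega)
      nlinarith
    have he : n * (u + 1) - (u ^ 2 + u) = h * (u * p + 1) := by
      rw [heq]
      have h1 : h * u * p + u ^ 2 + u + h = (u ^ 2 + u) + h * (u * p + 1) := by ring
      rw [h1, Nat.add_sub_cancel_left]
    refine ⟨u, List.mem_range.2 (by omega), ?_⟩
    simp only [Bool.and_eq_true, decide_eq_true_eq]
    refine ⟨hu, hlt, ?_⟩
    rw [he]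
    exact Dvd.intro_left h rfl

/-- the exceptional-character witness passes the Bool test -/
theorem t2_excOK {N p : ℕ} (hN : 0 < N)
    (h : ∃ e : ℕ, 2 ≤ e ∧ e ∣ N ∧ e + 1 ∣ N ∧ (e % p = 1 ∨ (e + 2) % p = 0)) :
    excOK N p = true := by
  obtain ⟨e, he2, heN, he1N, hep⟩ := h
  unfold excOK
  rw [List.any_eq_true]
  have hle := Nat.le_of_dvd hN heN
  refine ⟨e, List.mem_range.2 (by omega), ?_⟩
  simp only [Bool.and_eq_true, Bool.or_eq_true, decide_eq_true_eq]
  exact ⟨he2, heN, he1N, hep⟩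

/-- piece T2 (pure arithmetic) -/
theorem mem_cands_of_data {N p d c r : ℕ} (hN : 0 < N) (hp : p.Prime) (h1 : d % p = 1) (h2 : d ≠ 1)
    (h3 : p * c * r * d = N) (h4 : r ∣ p - 1) (h5 : r ≠ 1) (h6 : 2 * N ∣ d.factorial)
    (h7 : p = 5 → d ≠ 21)
    (h8 : (3 < p ∧ (p ^ 2 - 1) * p ∣ 2 * N) ∨
      (3 < p ∧ (∃ k : ℕ, p = 2 ^ k + 1) ∧ (p - 1) * p * (p - 2) ∣ N) ∨
      ∃ h u : ℕ, 0 < h ∧ 0 < u ∧ ((d - 1) / p) * (u + 1) = h * u * p + u ^ 2 + u + h)
    (h9 : ∀ q : ℕ, q.Prime → q ∣ c →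
      ∃ f : ℕ, f % p = 1 ∧ f % q = d % q ∧ f < d ∧ (q = 2 → f % 4 = d % 4))
    (h10 : c = 1 → r = 2 → p ≠ 2 →
      ∃ e : ℕ, 2 ≤ e ∧ e ∣ N ∧ e + 1 ∣ N ∧ (e % p = 1 ∨ (e + 2) % p = 0)) :
    (d, c, r) ∈ cands N p := by
  have hp2 : 2 ≤ p := hp.two_le
  have hd1 : 1 ≤ d := by
    rcases Nat.eq_zero_or_pos d with h0 | h0
    · rw [h0, Nat.zero_mod] at h1
      omega
    · exact h0
  have hc1 : 1 ≤ c := by
    rcases Nat.eq_zero_or_pos c with h0 | h0
    · rw [h0] at h3
      simp at h3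
      omega
    · exact h0
  have hr1 : 1 ≤ r := by
    rcases Nat.eq_zero_or_pos r with h0 | h0
    · rw [h0] at h3
      simp at h3
      omega
    · exact h0
  have hrp : r < p := by
    have hle := Nat.le_of_dvd (by omega) h4
    omega
  have hNp : N / p = c * r * d := by
    have e1 : N = p * (c * r * d) := by rw [← h3]; ring
    rw [e1, Nat.mul_div_cancel_left _ (by omega)]
  have hdNp : d ∣ N / p := by
    rw [hNp]
    exact Dvd.intro_left _ rfl
  have hdle : d ≤ N / p := by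
    rw [hNp]
    have hcr : 1 ≤ c * r := Nat.mul_pos hc1 hr1
    calc d = 1 * d := (one_mul d).symm
      _ ≤ c * r * d := Nat.mul_le_mul_right d hcr
  have hcq : N / (p * r * d) = c := by
    have e1 : N = c * (p * r * d) := by rw [← h3]; ring
    have hpos : 0 < p * r * d := Nat.mul_pos (Nat.mul_pos (by omega) hr1) hd1
    rw [e1, Nat.mul_div_cancel _ hpos]
  -- the Bool tests
  have hbr : brOK N p ((d - 1) / p) = true := t2_brOK hp h8
  have hfix1 : ∀ q : ℕ, q.Prime → (!decide (q ∣ c) || fixOK p d q) = true := by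
    intro q hq
    by_cases hqc : q ∣ c
    · rw [t2_fixOK (h9 q hq hqc), Bool.or_true]
    · simp [hqc]
  have hfixall : ([2, 3, 5, 7, 11, 13].all fun q => !decide (q ∣ c) || fixOK p d q) = true := by
    rw [List.all_eq_true]
    intro q hq
    have hq' : q.Prime := by
      simp only [List.mem_cons, List.mem_nil_iff, or_false] at hq
      rcases hq with rfl | rfl | rfl | rfl | rfl | rfl <;> norm_num
    exact hfix1 q hq'
  have hexc : (decide (c ≠ 1) || (decide (r ≠ 2) || (decide (p = 2) || excOK N p))) = true := by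
    by_cases hc1' : c = 1
    · by_cases hr2 : r = 2
      · by_cases hp2' : p = 2
        · simp [hp2']
        · rw [t2_excOK hN (h10 hc1' hr2 hp2')]
          simp
      · simp [hr2]
    · simp [hc1']
  have hcand : candOK N p d c r = true := by
    unfold candOK
    rw [hbr, hfixall, hexc]
    simp only [Bool.and_true, Bool.and_eq_true, Bool.or_eq_true, decide_eq_true_eq]
    refine ⟨h1, h2, h3, h4, h5, Or.inr h6, ?_⟩
    by_cases hp5 : p = 5
    · exact Or.inr (h7 hp5)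
    · exact Or.inl hp5
  unfold cands
  rw [List.mem_flatMap]
  refine ⟨d, ?_, ?_⟩
  · rw [List.mem_filter, List.mem_range]
    refine ⟨by omega, ?_⟩
    simp only [Bool.and_eq_true, decide_eq_true_eq]
    exact ⟨h1, hdNp⟩
  · rw [List.mem_filterMap]
    refine ⟨r, List.mem_range.2 hrp, ?_⟩
    rw [hcq, if_pos hcand]

end Cfsg.Agent.S983
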