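import Mathlib
import Cfsg.Agent.Lib.Helper44.SURegBase

/-!
# S2282 piece LEMK (helper29): the Heisenberg commutator lemma `KProp`.
-/

set_option autoImplicit false

namespace Cfsg.Agent.Lib.Helper29.SUReg

open Matrix Cfsg.Agent.Lib.Helper7 Cfsg.Agent.Lib.Helper18 Cfsg.Agent.Lib.Helper93
  Cfsg.Agent.Lib.Helper44.SUReg

variable {F : Type*} [Field F] [Fintype F] {q n m : ℕ}

theorem MIn_of_mul_right {M : Subgroup (GL (Fin n) F)} {A B C : Matrix (Fin n) (Fin n) F}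
    (hB : MIn M B) (hC : MIn M C) (h : A * B = C) : MIn M A := by
  obtain ⟨t, ht, rfl⟩ := hB
  obtain ⟨s, hs, rfl⟩ := hC
  refine ⟨s * t⁻¹, M.mul_mem hs (M.inv_mem ht), ?_⟩
  rw [Units.val_mul, ← h, mul_assoc, ← Units.val_mul, mul_inv_cancel, Units.val_one, mul_one]

/-- the Siegel element `t_{v+w}(a) t_v(-a) t_w(-a)` is a Heisenberg element -/
theorem siegel_eq (hF : Fintype.card F = q ^ 2) {v w : Fin n → F}
    (hvv : Cfsg.hermForm n F q v v = 0) (hww : Cfsg.hermForm n F q w w = 0)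
    (hvw : Cfsg.hermForm n F q v w = 0) {a : F} (ha : a + a ^ q = 0) :
    Cfsg.unitaryTransvection n q (v + w) a * Cfsg.unitaryTransvection n q v (-a) *
      Cfsg.unitaryTransvection n q w (-a) = heis q n v (a • w) 0 := by
  have hwv : Cfsg.hermForm n F q w v = 0 := hf_eq_zero_symm hF n _ _ hvw
  have haq : a ^ q = -a := by linear_combination ha
  apply Matrix.mulVec_injective
  funext x
  rw [← Matrix.mulVec_mulVec, ← Matrix.mulVec_mulVec, unitaryTransvection_mulVec,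
    unitaryTransvection_mulVec, unitaryTransvection_mulVec, heis_mulVec]
  simp only [hf_add_left, hf_add_right hF, hf_smul_left, hf_smul_right, hvv, hww, hvw, hwv, haq,
    mul_zero, add_zero, zero_add]
  module

theorem su_lemK (hF : Fintype.card F = q ^ 2) {H : Subgroup (GL (Fin n) F)}
    (hH : H ≤ Cfsg.GU n F q ⊓ Cfsg.Geo.specialLinear (Fin n) F) : KProp q H := by
  intro v w p₁ p₂ a₁ a₁' a₂ a₂' hvv hww hvw hp₁ hp₂ hp₁v hp₂v ha₁ ha₁' ha₂ ha₂'
    tv1 tw1 tvw1 tv2 tw2 tvw2 tp1 tp2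
  have hwv : Cfsg.hermForm n F q w v = 0 := hf_eq_zero_symm hF n _ _ hvw
  have step : ∀ (p : Fin n → F) (a a' : F), Cfsg.hermForm n F q p p = 0 →
      Cfsg.hermForm n F q p v = 0 → a + a ^ q = 0 → a' + a' ^ q = 0 →
      TIn q H v a → TIn q H w a → TIn q H (v + w) a → TIn q H p a' →
      ∃ γ : F, MIn H (heis q n v ((a * a' * Cfsg.hermForm n F q w p) • p) γ) := by
    intro p a a' hpp hpv ha ha' tv tw tvw tp
    have hvp : Cfsg.hermForm n F q v p = 0 := hf_eq_zero_symm hF n _ _ hpv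
    have tvn : TIn q H v (-a) :=
      MIn.of_mul_eq_one tv (by rw [ut_mul n v a (-a) hvv, add_neg_cancel, ut_zero])
    have twn : TIn q H w (-a) :=
      MIn.of_mul_eq_one tw (by rw [ut_mul n w a (-a) hww, add_neg_cancel, ut_zero])
    have hS : MIn H (heis q n v (a • w) 0) := by
      rw [← siegel_eq hF hvv hww hvw ha]
      exact (tvw.mul tvn).mul twn
    have hawv : Cfsg.hermForm n F q (a • w) v = 0 := by rw [hf_smul_left, hwv, mul_zero]
    have hnawv : Cfsg.hermForm n F q (-(a • w)) v = 0 := by rw [hf_neg_left, hawv, neg_zero]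
    have hSinv : MIn H (heis q n v (-(a • w)) 0) := by
      apply MIn.of_mul_eq_one hS
      rw [heis_mul hF n v (a • w) (-(a • w)) 0 0 hvv hawv hnawv, add_neg_cancel, hf_neg_left,
        hf_smul_left, hf_smul_right, hww]
      simp only [mul_zero, neg_zero, sub_zero, add_zero]
      rw [heis_zero_w hF, ut_zero]
    have hT := tp.pres hH
    have hTv : Cfsg.unitaryTransvection n q p a' *ᵥ v = v := by
      rw [unitaryTransvection_mulVec, hvp, mul_zero, zero_smul, add_zero]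
    have hTw : Cfsg.unitaryTransvection n q p a' *ᵥ (a • w) =
        a • w + (a * a' * Cfsg.hermForm n F q w p) • p := by
      rw [unitaryTransvection_mulVec, hf_smul_left]
      congr 2
      ring
    have hconj : MIn H (heis q n v (a • w + (a * a' * Cfsg.hermForm n F q w p) • p) 0) := by
      have h1 := conj_heis hT v (a • w) 0
      rw [hTv, hTw] at h1
      exact MIn.conj tp hS h1
    have hyv : Cfsg.hermForm n F q (a • w + (a * a' * Cfsg.hermForm n F q w p) • p) v = 0 := by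
      rw [hf_add_left, hawv, hf_smul_left, hpv, mul_zero, add_zero]
    have hprod := hconj.mul hSinv
    rw [heis_mul hF n v _ _ 0 0 hvv hyv hnawv] at hprod
    have e : a • w + (a * a' * Cfsg.hermForm n F q w p) • p + -(a • w) =
        (a * a' * Cfsg.hermForm n F q w p) • p := by abel
    rw [e] at hprod
    exact ⟨_, hprod⟩
  obtain ⟨γ₁, h1⟩ := step p₁ a₁ a₁' hp₁ hp₁v ha₁ ha₁' tv1 tw1 tvw1 tp1
  obtain ⟨γ₂, h2⟩ := step p₂ a₂ a₂' hp₂ hp₂v ha₂ ha₂' tv2 tw2 tvw2 tp2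
  obtain ⟨y₁, hy₁⟩ : ∃ y₁, y₁ = (a₁ * a₁' * Cfsg.hermForm n F q w p₁) • p₁ := ⟨_, rfl⟩
  obtain ⟨y₂, hy₂⟩ : ∃ y₂, y₂ = (a₂ * a₂' * Cfsg.hermForm n F q w p₂) • p₂ := ⟨_, rfl⟩
  rw [← hy₁] at h1
  rw [← hy₂] at h2
  have hy₁v : Cfsg.hermForm n F q y₁ v = 0 := by rw [hy₁, hf_smul_left, hp₁v, mul_zero]
  have hy₂v : Cfsg.hermForm n F q y₂ v = 0 := by rw [hy₂, hf_smul_left, hp₂v, mul_zero]
  have h12 := h1.mul h2
  have h21 := h2.mul h1
  rw [heis_mul hF n v y₁ y₂ γ₁ γ₂ hvv hy₁v hy₂v] at h12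
  rw [heis_mul hF n v y₂ y₁ γ₂ γ₁ hvv hy₂v hy₁v] at h21
  have key : Cfsg.unitaryTransvection n q v
        (Cfsg.hermForm n F q y₁ y₂ - Cfsg.hermForm n F q y₂ y₁) *
      heis q n v (y₂ + y₁) (γ₂ + γ₁ - Cfsg.hermForm n F q y₁ y₂) =
      heis q n v (y₁ + y₂) (γ₁ + γ₂ - Cfsg.hermForm n F q y₂ y₁) := by
    rw [transvection_mul_heis hF n v _ _ _ hvv (by rw [hf_add_left, hy₁v, hy₂v, add_zero]),
      add_comm y₂ y₁]
    congr 1
    ring
  have hres := MIn_of_mul_right h21 h12 key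
  have hc : Cfsg.hermForm n F q y₁ y₂ - Cfsg.hermForm n F q y₂ y₁ =
      (Cfsg.hermForm n F q w p₁ * Cfsg.hermForm n F q w p₂ ^ q * Cfsg.hermForm n F q p₁ p₂ -
      (Cfsg.hermForm n F q w p₁ * Cfsg.hermForm n F q w p₂ ^ q * Cfsg.hermForm n F q p₁ p₂) ^ q) *
      (a₁ * a₁' * a₂ * a₂') := by
    rw [hy₁, hy₂]
    simp only [hf_smul_left, hf_smul_right, mul_pow]
    rw [hf_conj hF n p₁ p₂, herm_pow_pow hF]
    have e1 : a₁ ^ q = -a₁ := by linear_combination ha₁
    have e2 : a₁' ^ q = -a₁' := by linear_combination ha₁'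
    have e3 : a₂ ^ q = -a₂ := by linear_combination ha₂
    have e4 : a₂' ^ q = -a₂' := by linear_combination ha₂'
    rw [e1, e2, e3, e4]
    ring
  rw [hc] at hres
  exact hres

end Cfsg.Agent.Lib.Helper29.SUReg
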