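import Mathlib
import Cfsg.Agent.Lib.Helper44.SURegBase
import Cfsg.Agent.Lib.Helper13.S2281Aux

/-!
# S2282 piece REG (helper29): a matrix acting on a Witt frame like a regular unipotent is regular
unipotent.
-/

set_option autoImplicit false

namespace Cfsg.Agent.Lib.Helper29.SUReg

open Matrix Cfsg.Agent.Lib.Helper7 Cfsg.Agent.Lib.Helper18 Cfsg.Agent.Lib.Helper93
  Cfsg.Agent.Lib.Helper44.SUReg

variable {F : Type*} [Field F] [Fintype F] {q n m : ℕ}

/-- the frame vectors in the order `e 0, …, e (m-1), d, f (m-1), …, f 0` -/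
def bvec (m : ℕ) (e f : ℕ → Fin n → F) (d : Fin n → F) (k : ℕ) : Fin n → F :=
  if k < m then e k else if k = m then d else f (2 * m - k)

/-- the dual frame vectors -/
def bdual (m : ℕ) (e f : ℕ → Fin n → F) (d : Fin n → F) (k : ℕ) : Fin n → F :=
  if k < m then f k else if k = m then d else e (2 * m - k)

theorem bvec_lt {e f : ℕ → Fin n → F} {d : Fin n → F} {k : ℕ} (hk : k < m) :
    bvec m e f d k = e k := by
  unfold bvec; rw [if_pos hk]

theorem bvec_eq {e f : ℕ → Fin n → F} {d : Fin n → F} : bvec m e f d m = d := by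
  unfold bvec; rw [if_neg (lt_irrefl m), if_pos rfl]

theorem bvec_gt {e f : ℕ → Fin n → F} {d : Fin n → F} {k : ℕ} (hk : m < k) :
    bvec m e f d k = f (2 * m - k) := by
  unfold bvec; rw [if_neg (by omega), if_neg (by omega)]

theorem bdual_lt {e f : ℕ → Fin n → F} {d : Fin n → F} {k : ℕ} (hk : k < m) :
    bdual m e f d k = f k := by
  unfold bdual; rw [if_pos hk]

theorem bdual_eq {e f : ℕ → Fin n → F} {d : Fin n → F} : bdual m e f d m = d := by
  unfold bdual; rw [if_neg (lt_irrefl m), if_pos rfl]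

theorem bdual_gt {e f : ℕ → Fin n → F} {d : Fin n → F} {k : ℕ} (hk : m < k) :
    bdual m e f d k = e (2 * m - k) := by
  unfold bdual; rw [if_neg (by omega), if_neg (by omega)]

theorem bvec_bdual (hF : Fintype.card F = q ^ 2) {e f : ℕ → Fin n → F} {d : Fin n → F}
    (fr : WFr q n m e f d) (i j : ℕ) (hi : i < 2 * m + 1) (hj : j < 2 * m + 1) :
    Cfsg.hermForm n F q (bvec m e f d j) (bdual m e f d i) = if i = j then 1 else 0 := by
  rcases lt_trichotomy j m with hj' | hj' | hj' <;> rcases lt_trichotomy i m with hi' | hi' | hi'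
  · rw [bvec_lt hj', bdual_lt hi', fr.ef j i hj' hi']
    by_cases h : i = j
    · subst h; simp
    · rw [if_neg h, if_neg (fun h' => h h'.symm)]
  · subst hi'
    rw [bvec_lt hj', bdual_eq, fr.ed hF j hj', if_neg (by omega)]
  · rw [bvec_lt hj', bdual_gt hi', fr.ee j (2 * m - i) hj' (by omega), if_neg (by omega)]
  · subst hj'
    rw [bvec_eq, bdual_lt hi', fr.df i hi', if_neg (by omega)]
  · subst hj'
    subst hi'
    rw [bvec_eq, bdual_eq, fr.dd, if_pos rfl]
  · subst hj'
    rw [bvec_eq, bdual_gt hi', fr.de (2 * j - i) (by omega), if_neg (by omega)]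
  · rw [bvec_gt hj', bdual_lt hi', fr.ff (2 * m - j) i (by omega) hi', if_neg (by omega)]
  · subst hi'
    rw [bvec_gt hj', bdual_eq, fr.fd hF (2 * i - j) (by omega), if_neg (by omega)]
  · rw [bvec_gt hj', bdual_gt hi', fr.fe hF (2 * m - j) (2 * m - i) (by omega) (by omega)]
    by_cases h : i = j
    · subst h; simp
    · rw [if_neg h, if_neg (by omega)]

/-- the values `h(U f_k, e_l)` for `l ≤ k` -/
theorem c_values (hF : Fintype.card F = q ^ 2) {e f : ℕ → Fin n → F} {d : Fin n → F}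
    (fr : WFr q n m e f d) (U : Matrix (Fin n) (Fin n) F) (hU : suPres q n U)
    (h0 : U *ᵥ e 0 = e 0) (h1 : ∀ k, k + 1 < m → U *ᵥ e (k + 1) = e (k + 1) + e k)
    (k : ℕ) (hk : k < m) :
    ∀ l, l ≤ k → Cfsg.hermForm n F q (U *ᵥ f k) (e l) = if l = k then 1 else 0 := by
  intro l
  induction l with
  | zero =>
    intro _
    have h := hU (f k) (e 0)
    rw [h0, fr.fe hF k 0 hk (by omega)] at h
    rw [h]
    by_cases hk0 : k = 0
    · subst hk0; simp
    · rw [if_neg hk0, if_neg (fun h' => hk0 h'.symm)]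
  | succ l ih =>
    intro hl
    have h := hU (f k) (e (l + 1))
    rw [h1 l (by omega), hf_add_right hF, ih (by omega), if_neg (by omega), add_zero,
      fr.fe hF k (l + 1) hk (by omega)] at h
    rw [h]
    by_cases hk0 : k = l + 1
    · subst hk0; simp
    · rw [if_neg hk0, if_neg (fun h' => hk0 h'.symm)]

theorem c_value_succ (hF : Fintype.card F = q ^ 2) {e f : ℕ → Fin n → F} {d : Fin n → F}
    (fr : WFr q n m e f d) (U : Matrix (Fin n) (Fin n) F) (hU : suPres q n U)
    (h0 : U *ᵥ e 0 = e 0) (h1 : ∀ k, k + 1 < m → U *ᵥ e (k + 1) = e (k + 1) + e k)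
    (k : ℕ) (hk : k + 1 < m) :
    Cfsg.hermForm n F q (U *ᵥ f k) (e (k + 1)) = -1 := by
  have h := hU (f k) (e (k + 1))
  rw [h1 k hk, hf_add_right hF, c_values hF fr U hU h0 h1 k (by omega) k le_rfl, if_pos rfl,
    fr.fe hF k (k + 1) (by omega) hk, if_neg (by omega)] at h
  linear_combination h

/-- the matrix entries of `U - 1` in the frame basis: strictly upper triangular -/
theorem entry_zero (hF : Fintype.card F = q ^ 2) (hm : 1 ≤ m)
    {e f : ℕ → Fin n → F} {d : Fin n → F} (fr : WFr q n m e f d)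
    (U : Matrix (Fin n) (Fin n) F) (hU : suPres q n U) (a b : F)
    (h0 : U *ᵥ e 0 = e 0) (h1 : ∀ k, k + 1 < m → U *ᵥ e (k + 1) = e (k + 1) + e k)
    (h2 : U *ᵥ d = d + a • e (m - 1))
    (h3 : U *ᵥ f (m - 1) = f (m - 1) - a ^ q • d + b • e (m - 1))
    (i j : ℕ) (hji : j ≤ i) (hi : i < 2 * m + 1) :
    Cfsg.hermForm n F q (U *ᵥ bvec m e f d j - bvec m e f d j) (bdual m e f d i) = 0 := by
  have hE : ∀ k i', k < m → i' < 2 * m + 1 →
      Cfsg.hermForm n F q (e k) (bdual m e f d i') = if i' = k then 1 else 0 := by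
    intro k i' hk hi'
    have h := bvec_bdual hF fr i' k hi' (by omega)
    rwa [bvec_lt hk] at h
  have hDd : ∀ i', i' < 2 * m + 1 →
      Cfsg.hermForm n F q d (bdual m e f d i') = if i' = m then 1 else 0 := by
    intro i' hi'
    have h := bvec_bdual hF fr i' m hi' (by omega)
    rwa [bvec_eq] at h
  rcases lt_trichotomy j m with hj | hj | hj
  · -- `b_j = e j`
    rw [bvec_lt hj]
    rcases Nat.eq_zero_or_pos j with hj0 | hj0
    · subst hj0
      rw [h0, sub_self, hf_zero_left]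
    · obtain ⟨k, rfl⟩ : ∃ k, j = k + 1 := ⟨j - 1, by omega⟩
      rw [h1 k hj, add_sub_cancel_left, hE k i (by omega) hi, if_neg (by omega)]
  · subst hj
    rw [bvec_eq, h2, add_sub_cancel_left, hf_smul_left, hE (j - 1) i (by omega) hi,
      if_neg (by omega), mul_zero]
  · rcases Nat.lt_or_ge (m + 1) j with hj' | hj'
    · -- `b_j = f k`, `k < m - 1`
      rw [bvec_gt hj, bdual_gt (by omega), hf_sub_left,
        c_values hF fr U hU h0 h1 (2 * m - j) (by omega) (2 * m - i) (by omega),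
        fr.fe hF (2 * m - j) (2 * m - i) (by omega) (by omega)]
      by_cases h : 2 * m - i = 2 * m - j
      · rw [if_pos h, if_pos h.symm, sub_self]
      · rw [if_neg h, if_neg (fun h' => h h'.symm), sub_self]
    · have hj'' : j = m + 1 := by omega
      subst hj''
      have e1 : 2 * m - (m + 1) = m - 1 := by omega
      rw [bvec_gt hj, e1, h3]
      have e2 : f (m - 1) - a ^ q • d + b • e (m - 1) - f (m - 1) =
          (-(a ^ q)) • d + b • e (m - 1) := by module
      rw [e2, hf_add_left, hf_smul_left, hf_smul_left, hDd i hi, hE (m - 1) i (by omega) hi,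
        if_neg (by omega), if_neg (by omega), mul_zero, mul_zero, add_zero]

/-- the matrix entries of `U - 1` in the frame basis: nonzero superdiagonal -/
theorem entry_ne_zero (hF : Fintype.card F = q ^ 2) (hm : 1 ≤ m)
    {e f : ℕ → Fin n → F} {d : Fin n → F} (fr : WFr q n m e f d)
    (U : Matrix (Fin n) (Fin n) F) (hU : suPres q n U) (a b : F) (ha : a ≠ 0)
    (h0 : U *ᵥ e 0 = e 0) (h1 : ∀ k, k + 1 < m → U *ᵥ e (k + 1) = e (k + 1) + e k)
    (h2 : U *ᵥ d = d + a • e (m - 1))
    (h3 : U *ᵥ f (m - 1) = f (m - 1) - a ^ q • d + b • e (m - 1))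
    (i : ℕ) (hi : i + 1 < 2 * m + 1) :
    Cfsg.hermForm n F q (U *ᵥ bvec m e f d (i + 1) - bvec m e f d (i + 1)) (bdual m e f d i)
      ≠ 0 := by
  have hE : ∀ k i', k < m → i' < 2 * m + 1 →
      Cfsg.hermForm n F q (e k) (bdual m e f d i') = if i' = k then 1 else 0 := by
    intro k i' hk hi'
    have h := bvec_bdual hF fr i' k hi' (by omega)
    rwa [bvec_lt hk] at h
  have hDd : ∀ i', i' < 2 * m + 1 →
      Cfsg.hermForm n F q d (bdual m e f d i') = if i' = m then 1 else 0 := by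
    intro i' hi'
    have h := bvec_bdual hF fr i' m hi' (by omega)
    rwa [bvec_eq] at h
  rcases lt_trichotomy (i + 1) m with hj | hj | hj
  · rw [bvec_lt hj, h1 i hj, add_sub_cancel_left, hE i i (by omega) (by omega), if_pos rfl]
    exact one_ne_zero
  · have him : i = m - 1 := by omega
    rw [hj, bvec_eq, h2, add_sub_cancel_left, hf_smul_left, him,
      hE (m - 1) (m - 1) (by omega) (by omega), if_pos rfl, mul_one]
    exact ha
  · rcases Nat.lt_or_ge (m + 1) (i + 1) with hj' | hj'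
    · rw [bvec_gt hj, bdual_gt (by omega), hf_sub_left]
      have e1 : 2 * m - i = (2 * m - (i + 1)) + 1 := by omega
      rw [e1, c_value_succ hF fr U hU h0 h1 (2 * m - (i + 1)) (by omega),
        fr.fe hF (2 * m - (i + 1)) (2 * m - (i + 1) + 1) (by omega) (by omega), if_neg (by omega),
        sub_zero]
      exact neg_ne_zero.mpr one_ne_zero
    · have him : i = m := by omega
      subst him
      have e1 : 2 * i - (i + 1) = i - 1 := by omega
      rw [bvec_gt hj, e1, h3]
      have e2 : f (i - 1) - a ^ q • d + b • e (i - 1) - f (i - 1) =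
          (-(a ^ q)) • d + b • e (i - 1) := by module
      rw [e2, hf_add_left, hf_smul_left, hf_smul_left, hDd i (by omega),
        hE (i - 1) i (by omega) (by omega), if_pos rfl, if_neg (by omega), mul_zero, mul_one,
        add_zero]
      exact neg_ne_zero.mpr (pow_ne_zero _ ha)

theorem conj_pow_eq {ι : Type*} [Fintype ι] [DecidableEq ι] (P Q A : Matrix ι ι F)
    (hQP : Q * P = 1) (hPQ : P * Q = 1) (k : ℕ) : (Q * A * P) ^ k = Q * A ^ k * P := by
  induction k with
  | zero => rw [pow_zero, pow_zero, Matrix.mul_one, hQP]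
  | succ k ih =>
    rw [pow_succ, ih, pow_succ]
    calc Q * A ^ k * P * (Q * A * P) = Q * A ^ k * (P * Q) * A * P := by
          simp only [Matrix.mul_assoc]
      _ = Q * (A ^ k * A) * P := by rw [hPQ, Matrix.mul_one, Matrix.mul_assoc Q]

theorem su_reg (hF : Fintype.card F = q ^ 2) (hn : n = 2 * m + 1) (hm : 1 ≤ m)
    {e f : ℕ → Fin n → F} {d : Fin n → F} (fr : WFr q n m e f d)
    (U : Matrix (Fin n) (Fin n) F) (hU : suPres q n U) (a b : F) (ha : a ≠ 0)
    (h0 : U *ᵥ e 0 = e 0) (h1 : ∀ k, k + 1 < m → U *ᵥ e (k + 1) = e (k + 1) + e k)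
    (h2 : U *ᵥ d = d + a • e (m - 1))
    (h3 : U *ᵥ f (m - 1) = f (m - 1) - a ^ q • d + b • e (m - 1)) :
    IsNilpotent (U - 1) ∧ (U - 1) ^ (n - 1) ≠ 0 := by
  obtain ⟨P, hP⟩ : ∃ P : Matrix (Fin n) (Fin n) F, P = fun (i j : Fin n) => bvec m e f d (j : ℕ) i :=
    ⟨_, rfl⟩
  obtain ⟨Qm, hQm⟩ : ∃ Qm : Matrix (Fin n) (Fin n) F,
      Qm = fun (i k : Fin n) => bdual m e f d (i : ℕ) k ^ q := ⟨_, rfl⟩
  have hentry : ∀ (A : Matrix (Fin n) (Fin n) F) (i j : Fin n),
      (Qm * (A * P)) i j = Cfsg.hermForm n F q (A *ᵥ bvec m e f d j) (bdual m e f d i) := by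
    intro A i j
    rw [Matrix.mul_apply]
    unfold Cfsg.hermForm
    apply Finset.sum_congr rfl
    intro k _
    rw [hQm, mul_comm]
    congr 1
    rw [Matrix.mul_apply]
    unfold Matrix.mulVec dotProduct
    rw [hP]
  have hQP : Qm * P = 1 := by
    ext i j
    have h := hentry 1 i j
    rw [Matrix.one_mul, Matrix.one_mulVec,
      bvec_bdual hF fr i j (by have := i.2; omega) (by have := j.2; omega)] at h
    rw [h, Matrix.one_apply]
    by_cases hij : i = j
    · subst hij; simp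
    · rw [if_neg hij, if_neg (fun h' => hij (Fin.ext h'))]
  have hPQ : P * Qm = 1 := mul_eq_one_comm.mp hQP
  obtain ⟨M, hM⟩ : ∃ M : Matrix (Fin n) (Fin n) F, M = Qm * (U - 1) * P := ⟨_, rfl⟩
  have hMentry : ∀ i j : Fin n, M i j =
      Cfsg.hermForm n F q (U *ᵥ bvec m e f d j - bvec m e f d j) (bdual m e f d i) := by
    intro i j
    rw [hM, Matrix.mul_assoc, hentry, Matrix.sub_mulVec, Matrix.one_mulVec]
  have hT : ∀ i j : Fin n, M i j ≠ 0 → (i : ℕ) < (j : ℕ) := by
    intro i j hne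
    by_contra hcon
    apply hne
    rw [hMentry]
    exact entry_zero hF hm fr U hU a b h0 h1 h2 h3 i j (by omega) (by have := i.2; omega)
  have hn0 : 0 < n := by omega
  obtain ⟨l, hl⟩ : ∃ l : ℕ → Fin n, ∀ k, k < n → ((l k : Fin n) : ℕ) = k :=
    ⟨fun k => if h : k < n then ⟨k, h⟩ else ⟨0, hn0⟩, fun k hk => by simp [hk]⟩
  have hD : ∀ k, k + 1 < n → M (l k) (l (k + 1)) ≠ 0 := by
    intro k hk
    rw [hMentry, hl k (by omega), hl (k + 1) hk]
    exact entry_ne_zero hF hm fr U hU a b ha h0 h1 h2 h3 k (by omega)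
  have hMn : M ^ n = 0 :=
    Cfsg.Agent.Lib.Helper13.S2281Aux.rank_pow_eq_zero M (fun i => (i : ℕ)) n (fun i => i.2) hT
  have hMn1 : M ^ (n - 1) ≠ 0 :=
    Cfsg.Agent.Lib.Helper13.S2281Aux.rank_pow_ne_zero M (fun i => (i : ℕ)) n Fin.val_injective hT l
      hl hD hn0
  have hpow : ∀ k, M ^ k = Qm * (U - 1) ^ k * P := by
    intro k
    rw [hM]
    exact conj_pow_eq P Qm (U - 1) hQP hPQ k
  constructor
  · refine ⟨n, ?_⟩
    have h5 : P * (M ^ n) * Qm = (U - 1) ^ n := by
      rw [hpow n]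
      calc P * (Qm * (U - 1) ^ n * P) * Qm = (P * Qm) * (U - 1) ^ n * (P * Qm) := by
            simp only [Matrix.mul_assoc]
        _ = (U - 1) ^ n := by rw [hPQ, Matrix.one_mul, Matrix.mul_one]
    rw [← h5, hMn, Matrix.mul_zero, Matrix.zero_mul]
  · intro h6
    apply hMn1
    rw [hpow (n - 1), h6, Matrix.mul_zero, Matrix.zero_mul]

end Cfsg.Agent.Lib.Helper29.SUReg
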